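import Cfsg.Agent.Lib.Components.Unbalance
import Cfsg.Agent.Lib.LocalEven.Util

/-!
# Self-centralizing subnormal subgroups of `F*(A)` and `p`-subgroups they normalize

`S` is subnormal in `F*(A)` with `C_{F*(A)}(S) ≤ S`, and `Q₀` is a `q`-subgroup of `A` normalized
by `S`. Then `Q₀` centralizes `E(A)` and `O_r(A)` for all primes `r ≠ q`.
-/

set_option autoImplicit false
set_option linter.unusedSectionVars false

namespace Cfsg.Agent.Lib.Components.MaxOp

open Cfsg Subgroup Cfsg.Agent.Lib.CharP.Basic Cfsg.Agent.Lib.Components.CommAct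
open Cfsg.Agent.Lib.Components.Basic Cfsg.Agent.Lib.Components.Layer
open Cfsg.Agent.Lib.Core.Basic Cfsg.Agent.Lib.Core.Residual
open Cfsg.Agent.Lib.Components.GenFitting Cfsg.Agent.Lib.Components.FrattiniQuot
open scoped commutatorElement

universe u

section climb

variable {G : Type u} [Group G] [Finite G] {p : ℕ} [Fact p.Prime]

/-- Normalizer climbing: `y` of order prime to `p` normalizes the `p`-group `Π` and centralizes a
self-centralizing subgroup of it. Then `y` centralizes `Π`. -/
theorem commute_of_climb {P : Subgroup G} (hP : IsPGroup p P) {y : G}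
    (hyP : ∀ z ∈ P, y * z * y⁻¹ ∈ P) (hy : (orderOf y).Coprime p) (M : Subgroup G) :
    M ≤ P → (P ⊓ centralizer (M : Set G) ≤ M) → (∀ m ∈ M, y * m = m * y) → ∀ z ∈ P, y * z = z * y := by
  induction M using WellFoundedGT.induction with
  | ind M ih =>
    intro hMP hC hyM
    by_cases hMeq : M = P
    · subst hMeq
      exact hyM
    have hlt : M < P := lt_of_le_of_ne hMP hMeq
    -- the normalizer grows
    have hnil : Group.IsNilpotent P := hP.isNilpotent
    have hnc := Group.normalizerCondition_of_isNilpotent (G := P)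
    have hproper : M.subgroupOf P < ⊤ := by
      rw [lt_top_iff_ne_top]
      intro h
      apply hMeq
      apply le_antisymm hMP
      intro x hx
      have : (⟨x, hx⟩ : P) ∈ M.subgroupOf P := by rw [h]; exact mem_top _
      exact this
    obtain ⟨⟨z₀, hz₀P⟩, hz₀N, hz₀M⟩ := SetLike.exists_of_lt (hnc _ hproper)
    set M₂ : Subgroup G := P ⊓ normalizer (M : Set G) with hM₂
    have hz₀N' : z₀ ∈ normalizer (M : Set G) := by
      rw [mem_normalizer_iff]
      intro m
      constructor
      · intro hm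
        by_cases hmP : m ∈ P
        · have := (mem_normalizer_iff.mp hz₀N ⟨m, hmP⟩).mp hm
          exact this
        · exact absurd (hMP hm) hmP
      · intro hm
        have hmP : m ∈ P := by
          have h1 := hMP hm
          have h2 : z₀⁻¹ * (z₀ * m * z₀⁻¹) * z₀ = m := by group
          rw [← h2]
          exact mul_mem (mul_mem (inv_mem hz₀P) h1) hz₀P
        exact (mem_normalizer_iff.mp hz₀N ⟨m, hmP⟩).mpr hm
    have hMM₂ : M < M₂ := by
      refine lt_of_le_of_ne (le_inf hMP le_normalizer) ?_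
      intro h
      apply hz₀M
      have : z₀ ∈ M := by
        rw [h]
        exact mem_inf.mpr ⟨hz₀P, hz₀N'⟩
      exact this
    have hM₂P : M₂ ≤ P := inf_le_left
    have hC₂ : P ⊓ centralizer (M₂ : Set G) ≤ M₂ := by
      intro x hx
      have h1 : x ∈ P ⊓ centralizer (M : Set G) := by
        refine mem_inf.mpr ⟨(mem_inf.mp hx).1, ?_⟩
        rw [mem_centralizer_iff]
        intro m hm
        exact (mem_centralizer_iff.mp (mem_inf.mp hx).2) m (hMM₂.le hm)
      exact hMM₂.le (hC h1)
    refine ih M₂ hMM₂ hM₂P hC₂ ?_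
    intro z hz
    have hzP : z ∈ P := (mem_inf.mp hz).1
    have hzN : z ∈ normalizer (M : Set G) := (mem_inf.mp hz).2
    set u := z⁻¹ * (y * z * y⁻¹) with hu
    have huP : u ∈ P := mul_mem (inv_mem hzP) (hyP z hzP)
    have huC : u ∈ centralizer (M : Set G) := by
      rw [mem_centralizer_iff]
      intro m hm
      have h1 : z * m * z⁻¹ ∈ M := (mem_normalizer_iff.mp hzN m).mp hm
      have h2 := hyM m hm
      have h3 := hyM _ h1
      have h4 : y⁻¹ * m * y = m := by
        calc y⁻¹ * m * y = y⁻¹ * (m * y) := by group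
          _ = y⁻¹ * (y * m) := by rw [h2]
          _ = m := by group
      have h5 : (y * z * y⁻¹) * m * (y * z * y⁻¹)⁻¹ = z * m * z⁻¹ := by
        calc (y * z * y⁻¹) * m * (y * z * y⁻¹)⁻¹ = y * z * (y⁻¹ * m * y) * z⁻¹ * y⁻¹ := by group
          _ = y * (z * m * z⁻¹) * y⁻¹ := by rw [h4]; group
          _ = (z * m * z⁻¹) * y * y⁻¹ := by rw [h3]
          _ = z * m * z⁻¹ := by group
      have h6 : (y * z * y⁻¹) * m = z * m * z⁻¹ * (y * z * y⁻¹) := by
        rw [← h5]; group
      calc m * u = m * z⁻¹ * (y * z * y⁻¹) := by rw [hu]; group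
        _ = z⁻¹ * (z * m * z⁻¹ * (y * z * y⁻¹)) := by group
        _ = z⁻¹ * ((y * z * y⁻¹) * m) := by rw [h6]
        _ = u * m := by rw [hu]; group
    have huM : u ∈ M := hC (mem_inf.mpr ⟨huP, huC⟩)
    have hyu := hyM u huM
    have hzu : y * z * y⁻¹ = z * u := by rw [hu]; group
    have hpow : ∀ n : ℕ, y ^ n * z * (y ^ n)⁻¹ = z * u ^ n := by
      intro n
      induction n with
      | zero => simp
      | succ n ih2 =>
        have hcomm : Commute y (u ^ n) := (show Commute y u from hyu).pow_right n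
        calc y ^ (n + 1) * z * (y ^ (n + 1))⁻¹ = y * (y ^ n * z * (y ^ n)⁻¹) * y⁻¹ := by
              rw [pow_succ']; group
          _ = y * (z * u ^ n) * y⁻¹ := by rw [ih2]
          _ = (y * z * y⁻¹) * (y * u ^ n * y⁻¹) := by group
          _ = (y * z * y⁻¹) * (u ^ n * y * y⁻¹) := by rw [hcomm.eq]
          _ = z * u * u ^ n := by rw [hzu]; group
          _ = z * u ^ (n + 1) := by rw [pow_succ']; group
    have h1 := hpow (orderOf y)
    rw [pow_orderOf_eq_one, one_mul, inv_one, mul_one] at h1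
    have h2 : u ^ orderOf y = 1 := by
      have : z * 1 = z * u ^ orderOf y := by rw [mul_one]; exact h1
      exact (mul_left_cancel this).symm
    have h3 : (orderOf u).Coprime p :=
      Nat.Coprime.coprime_dvd_left (orderOf_dvd_of_pow_eq_one h2) hy
    obtain ⟨k, hk⟩ := (IsPGroup.iff_orderOf.mp hP) ⟨u, huP⟩
    have h4 : u ^ p ^ k = 1 := by
      have h5 : orderOf u = p ^ k := by
        rw [← hk, Subgroup.orderOf_mk]
      rw [← h5]; exact pow_orderOf_eq_one u
    have h5 : u = 1 := eq_one_of_pow_and_coprime h3 h4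
    have h6 : y * z * y⁻¹ = z := by rw [hzu, h5, mul_one]
    calc y * z = y * z * y⁻¹ * y := by group
      _ = z * y := by rw [h6]

/-- Perfect subgroups are generated by elements of order prime to `p`. -/
theorem le_of_forall_coprime {L C : Subgroup G} (hL : ⁅L, L⁆ = L)
    (h : ∀ l ∈ L, (orderOf l).Coprime p → l ∈ C) : L ≤ C := by
  have h1 : pResidual p ↥L = ⊤ := by
    rw [pResidual_eq_top_iff]
    intro N hN n hn
    have hq : IsPGroup p (↥L ⧸ N) := IsPGroup.of_card hn
    have : Group.IsNilpotent (↥L ⧸ N) := hq.isNilpotent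
    have hperf : Group.IsPerfect ↥L := (Subgroup.isPerfect_iff).mpr hL
    have hperf2 : Group.IsPerfect (↥L ⧸ N) := inferInstance
    have hss : Subsingleton (↥L ⧸ N) := by
      by_contra hne
      rw [not_subsingleton_iff_nontrivial] at hne
      exact Group.IsPerfect.not_isNilpotent _ this
    exact QuotientGroup.subgroup_eq_top_of_subsingleton N hss
  intro l hl
  have h2 : (⟨l, hl⟩ : L) ∈ pResidual p ↥L := by rw [h1]; exact mem_top _
  have h3 : pResidual p ↥L ≤ C.subgroupOf L := by
    rw [pResidual, closure_le]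
    intro x hx
    have hx' : (orderOf x).Coprime p := hx
    rw [← Subgroup.orderOf_coe] at hx'
    exact h x x.2 hx'
  exact h3 h2

end climb

section partI

variable {X : Type u} [Group X] [Finite X] {S : Subgroup X}
  (hSF : S ≤ generalizedFittingSubgroup X) (hSsn : S.IsSubnormal)
  (hSC : generalizedFittingSubgroup X ⊓ centralizer (S : Set X) ≤ S)

include hSsn hSC in
/-- All components lie in `S`. -/
theorem component_le {L : Subgroup X} (hL : IsComponent L) : L ≤ S := by
  rcases component_le_or_commutator_eq_bot hL hSsn with h | h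
  · exact h
  · refine le_trans (le_inf ?_ ?_) hSC
    · exact (le_layer_of_isComponent hL).trans layer_le_generalizedFitting
    · exact commutator_eq_bot_iff_le_centralizer.mp h

include hSF hSsn hSC in
/-- `C_{O_r(X)}(O_r(S)) ≤ O_r(S)`. -/
theorem mem_OpIn_of_commute (r : ℕ) [Fact r.Prime] {x : X} (hx : x ∈ pCore r X)
    (hc : ∀ u ∈ OpIn r S, u * x = x * u) : x ∈ OpIn r S := by
  have hxF : x ∈ fittingSubgroup X := pCore_le_fittingSubgroup r hx
  have hxg : x ∈ generalizedFittingSubgroup X :=
    (le_sup_right : fittingSubgroup X ≤ generalizedFittingSubgroup X) hxF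
  -- `x` centralizes `S`
  have hgF : (generalizedFittingSubgroup ↥S).map S.subtype = S := by
    rw [map_generalizedFitting_of_isSubnormal hSsn]
    exact inf_eq_right.mpr hSF
  have hlayer : (layer ↥S).map S.subtype ≤ centralizer ({x} : Set X) := by
    rw [layer, Subgroup.map_le_iff_le_comap, sSup_le_iff]
    intro K hK y hy
    rw [mem_comap, mem_centralizer_singleton_iff]
    have hK' : IsComponent (K.map S.subtype) := (isComponent_iff_map_subtype hSsn K).mp hK
    have h1 : (y : X) ∈ layer X := le_layer_of_isComponent hK' ⟨y, hy, rfl⟩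
    have h2 := commutator_layer_fitting (G := X)
    have h3 : ⁅(y : X), x⁆ ∈ ⁅layer X, fittingSubgroup X⁆ := commutator_mem_commutator h1 hxF
    rw [h2, mem_bot, commutatorElement_eq_one_iff_commute] at h3
    exact h3
  have hfit : (fittingSubgroup ↥S).map S.subtype ≤ centralizer ({x} : Set X) := by
    refine (map_mono (fitting_le_sup r)).trans ?_
    rw [Subgroup.map_sup]
    refine sup_le ?_ ?_
    · intro u hu
      rw [mem_centralizer_singleton_iff]
      exact hc u hu
    · rw [Rp, Subgroup.map_iSup]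
      refine iSup_le fun q => ?_
      have : Fact (q.1 : ℕ).Prime := ⟨q.1.2⟩
      have hle : (pCore (q.1 : ℕ) ↥S).map S.subtype ≤ pCore (q.1 : ℕ) X :=
        OpIn_le_pCore_of_subnormal hSsn
      intro u hu
      rw [mem_centralizer_singleton_iff]
      have hq : pCore (q.1 : ℕ) X ⊓ pCore r X = ⊥ :=
        disjoint_iff.mp (IsPGroup.disjoint_of_ne _ _ q.2 _ _ pCore_isPGroup pCore_isPGroup)
      exact Subgroup.commute_of_normal_of_disjoint _ _ (pCore_normal _ X) (pCore_normal r X)
        (disjoint_iff.mpr hq) u x (hle hu) hx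
  have hxS : x ∈ centralizer (S : Set X) := by
    rw [mem_centralizer_iff]
    intro s hs
    rw [← hgF, generalizedFittingSubgroup, Subgroup.map_sup] at hs
    have := (sup_le hlayer hfit) hs
    exact (mem_centralizer_singleton_iff.mp this)
  have hxinS : x ∈ S := hSC (mem_inf.mpr ⟨hxg, hxS⟩)
  have hle : (pCore r X ⊓ S) ≤ OpIn r S := by
    apply le_OpIn inf_le_right
    · exact pCore_isPGroup.to_le inf_le_left
    · intro h hh y hy
      exact mem_inf.mpr ⟨(pCore_normal r X).conj_mem y (mem_inf.mp hy).1 h,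
        mul_mem (mul_mem hh (mem_inf.mp hy).2) (inv_mem hh)⟩
  exact hle (mem_inf.mpr ⟨hx, hxinS⟩)

variable {q : ℕ} [Fact q.Prime] {Q : Subgroup X} (hQ : IsPGroup q Q)
  (hQS : S ≤ normalizer (Q : Set X))

include hSsn hSC hQ hQS in
/-- `Q` centralizes the components. -/
theorem commutator_component_eq_bot {L : Subgroup X} (hL : IsComponent L) : ⁅L, Q⁆ = ⊥ := by
  rcases component_le_or_commutator_eq_bot_of_le_normalizer hL
    ((component_le hSsn hSC hL).trans hQS) with h | h
  · exfalso
    have h1 : IsPGroup q L := hQ.to_le h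
    exact quasisimple_not_nilpotent hL.2 h1.isNilpotent
  · exact h

include hSsn hQ hQS in
/-- `O_r(S)` centralizes `Q`. -/
theorem commute_OpIn (r : ℕ) [Fact r.Prime] (hr : r ≠ q) {u y : X} (hu : u ∈ OpIn r S)
    (hy : y ∈ Q) : u * y = y * u := by
  have huS : u ∈ S := OpIn_le r S hu
  have hur : u ∈ pCore r X := OpIn_le_pCore_of_subnormal hSsn hu
  have h1 : u * y * u⁻¹ * y⁻¹ ∈ Q :=
    mul_mem ((le_normalizer_iff.mp hQS) u huS y hy) (inv_mem hy)
  have h2 : u * y * u⁻¹ * y⁻¹ ∈ pCore r X := by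
    have e : u * y * u⁻¹ * y⁻¹ = u * (y * u⁻¹ * y⁻¹) := by group
    rw [e]
    exact mul_mem hur ((pCore_normal r X).conj_mem _ (inv_mem hur) y)
  have h3 : pCore r X ⊓ Q = ⊥ :=
    disjoint_iff.mp (IsPGroup.disjoint_of_ne r q hr _ _ pCore_isPGroup hQ)
  have h4 : u * y * u⁻¹ * y⁻¹ ∈ pCore r X ⊓ Q := mem_inf.mpr ⟨h2, h1⟩
  rw [h3, mem_bot] at h4
  calc u * y = (u * y * u⁻¹ * y⁻¹) * (y * u) := by group
    _ = y * u := by rw [h4, one_mul]

include hSF hSsn hSC hQ hQS in
/-- `Q` centralizes `O_r(X)` for `r ≠ q`. -/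
theorem commute_pCore (r : ℕ) [Fact r.Prime] (hr : r ≠ q) {y x : X} (hy : y ∈ Q)
    (hx : x ∈ pCore r X) : y * x = x * y := by
  have hQn := pCore_normal r X
  refine thompson_AB (pCore r X) (OpIn r S) pCore_isPGroup (OpIn_isPGroup r S) ?_ y ?_ ?_ ?_ ?_ x hx
  · intro u hu z hz
    exact hQn.conj_mem z hz u
  · intro z hz
    exact hQn.conj_mem z hz y
  · intro u hu
    exact (commute_OpIn hSsn hQ hQS r hr hu hy).symm
  · obtain ⟨k, hk⟩ := (IsPGroup.iff_orderOf.mp hQ) ⟨y, hy⟩
    rw [Subgroup.orderOf_mk] at hk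
    rw [hk]
    exact Nat.Coprime.pow_left _ ((Nat.coprime_primes Fact.out Fact.out).mpr hr.symm)
  · intro z hz hzc
    have h1 : z ∈ OpIn r S := mem_OpIn_of_commute hSF hSsn hSC r hz hzc
    exact (commute_OpIn hSsn hQ hQS r hr h1 hy).symm

include hSF hSsn hSC hQ hQS in
/-- `Q` centralizes `O_{q'}(F(X))`. -/
theorem commute_Rp {y x : X} (hy : y ∈ Q) (hx : x ∈ Rp q X) : y * x = x * y := by
  have h1 : Rp q X ≤ centralizer ({y} : Set X) := by
    rw [Rp]
    refine iSup_le fun r => ?_
    have : Fact (r.1 : ℕ).Prime := ⟨r.1.2⟩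
    intro u hu
    rw [mem_centralizer_singleton_iff]
    exact (commute_pCore hSF hSsn hSC hQ hQS _ r.2 hy hu).symm
  exact (mem_centralizer_singleton_iff.mp (h1 hx)).symm

include hSsn hSC hQ hQS in
/-- `Q` centralizes `E(X)`. -/
theorem commute_layer {y x : X} (hy : y ∈ Q) (hx : x ∈ layer X) : y * x = x * y := by
  have h1 : layer X ≤ centralizer ({y} : Set X) := by
    rw [layer, sSup_le_iff]
    intro L hL u hu
    rw [mem_centralizer_singleton_iff]
    have h2 : ⁅u, y⁆ ∈ ⁅L, Q⁆ := commutator_mem_commutator hu hy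
    rw [commutator_component_eq_bot hSsn hSC hQ hQS hL, mem_bot,
      commutatorElement_eq_one_iff_commute] at h2
    exact h2
  exact (mem_centralizer_singleton_iff.mp (h1 hx)).symm

include hSF hSsn hSC hQ hQS in
/-- **(a)**: if `q` does not divide `|F(X)|`, then `Q = 1`. -/
theorem eq_bot_of_not_dvd (hq : ¬ q ∣ Nat.card (fittingSubgroup X)) : Q = ⊥ := by
  have hqb : pCore q X = ⊥ := by
    by_contra hne
    obtain ⟨n, hn⟩ := exists_card_pCore (p := q) (G := X)
    have h1 : Nat.card (pCore q X) ∣ Nat.card (fittingSubgroup X) :=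
      Subgroup.card_dvd_of_le (pCore_le_fittingSubgroup q)
    rw [hn] at h1
    rcases Nat.eq_zero_or_pos n with rfl | hpos
    · apply hne
      rw [pow_zero] at hn
      exact Subgroup.eq_bot_of_card_eq _ hn
    · exact hq ((dvd_pow_self q hpos.ne').trans h1)
  rw [eq_bot_iff]
  intro y hy
  have hc : y ∈ centralizer (generalizedFittingSubgroup X : Set X) := by
    rw [mem_centralizer_iff]
    intro x hx
    have h1 : layer X ⊔ fittingSubgroup X ≤ centralizer ({y} : Set X) := by
      refine sup_le ?_ ?_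
      · intro u hu
        rw [mem_centralizer_singleton_iff]
        exact (commute_layer hSsn hSC hQ hQS hy hu).symm
      · intro u hu
        rw [mem_centralizer_singleton_iff]
        have hu2 := fitting_le_sup q hu
        rw [hqb, bot_sup_eq] at hu2
        exact (commute_Rp hSF hSsn hSC hQ hQS hy hu2).symm
    exact (mem_centralizer_singleton_iff.mp (h1 hx))
  have h1 := centralizer_generalizedFitting_le hc
  have h2 := inf_centralizer_le_fitting (mem_inf.mpr ⟨h1, hc⟩)
  have h3 := Subgroup.card_dvd_of_le (Subgroup.zpowers_le.mpr h2)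
  rw [Nat.card_zpowers] at h3
  have h4 : (orderOf y).Coprime q := by
    have h5 : (Nat.card (fittingSubgroup X)).Coprime q :=
      ((Nat.Prime.coprime_iff_not_dvd Fact.out).mpr hq).symm
    exact Nat.Coprime.coprime_dvd_left h3 h5
  obtain ⟨k, hk⟩ := (IsPGroup.iff_orderOf.mp hQ) ⟨y, hy⟩
  rw [Subgroup.orderOf_mk] at hk
  have h6 : y ^ q ^ k = 1 := by rw [← hk]; exact pow_orderOf_eq_one y
  exact mem_bot.mpr (eq_one_of_pow_and_coprime h4 h6)

omit hSF hSsn hSC in
/-- The `p'`-elements of `F*(X)` lie in `E(X) O_{p'}(F(X))`. -/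
theorem pResidual_gF_le (p : ℕ) [Fact p.Prime] :
    (pResidual p ↥(generalizedFittingSubgroup X)).map (generalizedFittingSubgroup X).subtype ≤
      layer X ⊔ Rp p X := by
  rw [pResidual, MonoidHom.map_closure, closure_le]
  rintro _ ⟨g, hg, rfl⟩
  have hg' : (orderOf g).Coprime p := hg
  set f : X := (generalizedFittingSubgroup X).subtype g with hf
  have hfo : (orderOf f).Coprime p := by
    rw [hf, subtype_apply, Subgroup.orderOf_coe]; exact hg'
  set N := layer X ⊔ Rp p X with hN
  have hNn : N.Normal := by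
    have : (layer X).Normal := layer_normal
    have : (Rp p X).Normal := Rp_normal p
    exact sup_normal _ _
  have hfmem : f ∈ N ⊔ pCore p X := by
    have h1 : generalizedFittingSubgroup X ≤ N ⊔ pCore p X := by
      rw [generalizedFittingSubgroup]
      refine sup_le (le_sup_left.trans le_sup_left) ?_
      refine (fitting_le_sup p).trans (sup_le le_sup_right (le_sup_right.trans le_sup_left))
    exact h1 g.2
  have hNP : N ≤ normalizer ((pCore p X : Subgroup X) : Set X) := by
    rw [normalizer_eq_top_iff.mpr (pCore_normal p X)]; exact le_top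
  obtain ⟨n, hn, a, ha, hna⟩ := mem_sup_of_le_normalizer hNP hfmem
  have hcomm : Commute n a := by
    have h1 : N ≤ centralizer ({a} : Set X) := by
      refine sup_le ?_ ?_
      · intro u hu
        rw [mem_centralizer_singleton_iff]
        have h3 : ⁅u, a⁆ ∈ ⁅layer X, fittingSubgroup X⁆ :=
          commutator_mem_commutator hu (pCore_le_fittingSubgroup p ha)
        rw [commutator_layer_fitting, mem_bot, commutatorElement_eq_one_iff_commute] at h3
        exact h3
      · intro u hu
        rw [mem_centralizer_singleton_iff]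
        exact (commute_pCore_Rp p ha hu).symm.eq
    exact mem_centralizer_singleton_iff.mp (h1 hn)
  have h1 : f ^ orderOf f = 1 := pow_orderOf_eq_one f
  rw [← hna, hcomm.mul_pow] at h1
  have h2 : a ^ orderOf (n * a) ∈ N := by
    have h3 : a ^ orderOf (n * a) = (n ^ orderOf (n * a))⁻¹ := eq_inv_of_mul_eq_one_right h1
    rw [h3]
    exact inv_mem (pow_mem hn _)
  have hcop : (orderOf (n * a)).Coprime (orderOf a) := by
    obtain ⟨k, hk⟩ := (IsPGroup.iff_orderOf.mp (pCore_isPGroup (p := p) (G := X))) ⟨a, ha⟩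
    rw [Subgroup.orderOf_mk] at hk
    rw [hk]
    apply Nat.Coprime.pow_right
    rw [hna]; exact hfo
  obtain ⟨m, hm⟩ := exists_pow_eq_self_of_coprime hcop
  have h3 : a ∈ N := by
    rw [← hm]; exact pow_mem h2 m
  change f ∈ N
  rw [← hna]
  exact mul_mem hn h3

end partI

section partII

variable {G : Type u} [Group G] [Finite G] [IsSimpleGroup G] {A : Subgroup G} (hA : IsCoatom A)

include hA in
/-- A nontrivial normal subgroup of a maximal subgroup of a simple group has normalizer the maximal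
subgroup. -/
theorem normalizer_map_eq (V : Subgroup A) [hV : V.Normal] (hV1 : V ≠ ⊥) :
    normalizer ((V.map A.subtype : Subgroup G) : Set G) = A := by
  have hle : A ≤ normalizer ((V.map A.subtype : Subgroup G) : Set G) := by
    intro a ha
    have h1 : (⟨a, ha⟩ : A) ∈ normalizer (V : Set A) := by
      rw [normalizer_eq_top_iff.mpr hV]; exact mem_top _
    exact Subgroup.le_normalizer_map _ ⟨_, h1, rfl⟩
  rcases hA.le_iff.mp hle with h | h
  · exfalso
    have hn : (V.map A.subtype).Normal := normalizer_eq_top_iff.mp h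
    rcases hn.eq_bot_or_eq_top with h1 | h1
    · apply hV1
      exact (Subgroup.map_eq_bot_iff_of_injective _ A.subtype_injective).mp h1
    · apply hA.1
      rw [eq_top_iff, ← h1]
      exact map_subtype_le _
  · exact h

omit hA in
/-- The center of a `p`-core is a nontrivial normal subgroup, contained in `O_p(S)`. -/
theorem exists_central_pCore {X : Type u} [Group X] [Finite X] (r : ℕ) [Fact r.Prime]
    (hne : pCore r X ≠ ⊥) :
    ∃ V : Subgroup X, V.Normal ∧ V ≠ ⊥ ∧ V ≤ pCore r X ∧ V ≤ centralizer (pCore r X : Set X) := by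
  have hn := pCore_normal r X
  refine ⟨pCore r X ⊓ centralizer (pCore r X : Set X), inferInstance, ?_, inf_le_left, inf_le_right⟩
  have hnt : Nontrivial (pCore r X) := (Subgroup.nontrivial_iff_ne_bot _).mpr hne
  have hc := (pCore_isPGroup (p := r) (G := X)).center_nontrivial
  obtain ⟨z, hz⟩ := exists_ne (1 : center (pCore r X))
  intro h
  have h1 : ((z : pCore r X) : X) ∈ pCore r X ⊓ centralizer (pCore r X : Set X) := by
    refine mem_inf.mpr ⟨(z : pCore r X).2, ?_⟩
    rw [mem_centralizer_iff]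
    intro u hu
    have := (mem_center_iff.mp z.2) ⟨u, hu⟩
    exact congrArg Subtype.val this
  rw [h, mem_bot] at h1
  exact hz (Subtype.ext (Subtype.ext h1))

variable {S' : Subgroup ↥A} (hSF : S' ≤ generalizedFittingSubgroup ↥A) (hSsn : S'.IsSubnormal)
  (hSC : generalizedFittingSubgroup ↥A ⊓ centralizer (S' : Set ↥A) ≤ S')

include hA hSF hSsn hSC in
/-- **(b)**: if `p` divides `|F(A)|`, then a `p`-subgroup normalized by `S` commutes
elementwise with `O^p(F*(A))`. -/
theorem commute_of_dvd (p : ℕ) [Fact p.Prime] (hd : p ∣ Nat.card (fittingSubgroup ↥A))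
    {P : Subgroup G} (hP : IsPGroup p P) (hPS : S'.map A.subtype ≤ normalizer (P : Set G))
    {x : G} (hx : x ∈ P) {y : ↥A}
    (hy : y ∈ (pResidual p ↥(generalizedFittingSubgroup ↥A)).map
      (generalizedFittingSubgroup ↥A).subtype) : x * (y : G) = (y : G) * x := by
  have hp : p.Prime := Fact.out
  set Sp : Subgroup G := (OpIn p S').map A.subtype with hSp
  have hSpS : Sp ≤ S'.map A.subtype := map_mono (OpIn_le p S')
  have hSpP : IsPGroup p Sp := (OpIn_isPGroup p S').map _
  set Pi : Subgroup G := Sp ⊔ P with hPi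
  have hPiP : IsPGroup p Pi :=
    IsPGroup.to_sup_of_normal_right' hSpP hP (hSpS.trans hPS)
  have hPPi : P ≤ Pi := le_sup_right
  have hSpPi : Sp ≤ Pi := le_sup_left
  -- `S` normalizes `Π`
  have hPiS : ∀ s ∈ S'.map A.subtype, ∀ z ∈ Pi, s * z * s⁻¹ ∈ Pi := by
    intro s hs z hz
    obtain ⟨a, ha, b, hb, rfl⟩ := mem_sup_of_le_normalizer (hSpS.trans hPS) hz
    have e : s * (a * b) * s⁻¹ = (s * a * s⁻¹) * (s * b * s⁻¹) := by group
    rw [e]
    refine mul_mem (hSpPi ?_) (hPPi ((le_normalizer_iff.mp hPS) s hs b hb))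
    obtain ⟨s', hs', rfl⟩ := hs
    obtain ⟨a', ha', rfl⟩ := ha
    exact ⟨s' * a' * s'⁻¹, OpIn_conj hs' ha', rfl⟩
  -- `Q = Π ∩ A`
  set Q : Subgroup ↥A := Pi.comap A.subtype with hQ
  have hQP : IsPGroup p Q := hPiP.comap_subtype
  have hQS : S' ≤ normalizer (Q : Set ↥A) := by
    rw [le_normalizer_iff]
    intro s hs z hz
    exact hPiS _ ⟨s, hs, rfl⟩ _ hz
  set M : Subgroup G := Pi ⊓ A with hM
  have hMPi : M ≤ Pi := inf_le_left
  -- `T = O_p(A) ≠ 1`
  have hTne : pCore p ↥A ≠ ⊥ := by
    intro hT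
    obtain ⟨a, ha⟩ := exists_prime_orderOf_dvd_card' p hd
    have h1 := exists_decomp_fitting p a.2
    obtain ⟨u, hu, v, hv, huv⟩ := h1
    rw [hT, mem_bot] at hu
    rw [hu, one_mul] at huv
    have h2 := orderOf_coprime_of_mem_pPrimeCore (Rp_le_pPrimeCore p hv)
    rw [huv, Subgroup.orderOf_coe, ha] at h2
    exact hp.one_lt.ne' (by simpa using h2)
  obtain ⟨Z₀, hZ₀n, hZ₀ne, hZ₀T, hZ₀C⟩ := exists_central_pCore p hTne
  have hZ₀Op : Z₀ ≤ OpIn p S' := by
    intro z hz
    apply mem_OpIn_of_commute hSF hSsn hSC p (hZ₀T hz)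
    intro u hu
    exact (mem_centralizer_iff.mp (hZ₀C hz)) u (OpIn_le_pCore_of_subnormal hSsn hu)
  have hNZ := normalizer_map_eq hA Z₀ hZ₀ne
  have hZM : Z₀.map A.subtype ≤ M :=
    le_inf ((map_mono hZ₀Op).trans hSpPi) (map_subtype_le _)
  have hC : Pi ⊓ centralizer (M : Set G) ≤ M := by
    intro z hz
    refine mem_inf.mpr ⟨(mem_inf.mp hz).1, ?_⟩
    rw [← hNZ]
    apply centralizer_le_normalizer
    rw [mem_centralizer_iff]
    intro m hm
    exact (mem_centralizer_iff.mp (mem_inf.mp hz).2) m (hZM hm)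
  -- elements of `S` of order prime to `p` centralizing `M` centralize `Π`
  have hclimb : ∀ u ∈ S'.map A.subtype, (orderOf u).Coprime p → (∀ m ∈ M, u * m = m * u) →
      ∀ z ∈ Pi, u * z = z * u := by
    intro u hu huc hum
    exact commute_of_climb hPiP (hPiS u hu) huc M hMPi hC hum
  -- the case distinction
  by_cases hall : layer ↥A = ⊥ ∧ ∀ r : Nat.Primes, (r : ℕ) ≠ p → pCore (r : ℕ) ↥A = ⊥
  · have hRp : Rp p ↥A = ⊥ := by
      rw [Rp, iSup_eq_bot]
      intro q
      exact hall.2 q.1 q.2
    have h1 := pResidual_gF_le p hy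
    rw [hall.1, hRp, sup_bot_eq, mem_bot] at h1
    rw [h1]
    simp
  have hPiA : Pi ≤ A := by
    by_cases hl : layer ↥A = ⊥
    · -- a second prime
      have hr : ∃ r : Nat.Primes, (r : ℕ) ≠ p ∧ pCore (r : ℕ) ↥A ≠ ⊥ := by
        by_contra hne
        push Not at hne
        exact hall ⟨hl, hne⟩
      obtain ⟨r, hrp, hrne⟩ := hr
      have : Fact (r : ℕ).Prime := ⟨r.2⟩
      obtain ⟨V, hVn, hVne, hVT, hVC⟩ := exists_central_pCore (r : ℕ) hrne
      have hVOp : V ≤ OpIn (r : ℕ) S' := by
        intro z hz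
        apply mem_OpIn_of_commute hSF hSsn hSC (r : ℕ) (hVT hz)
        intro u hu
        exact (mem_centralizer_iff.mp (hVC hz)) u (OpIn_le_pCore_of_subnormal hSsn hu)
      rw [← normalizer_map_eq hA V hVne]
      refine le_trans ?_ (centralizer_le_normalizer _)
      rw [le_centralizer_iff]
      rintro _ ⟨v, hv, rfl⟩
      rw [mem_centralizer_iff]
      intro z hz
      refine (hclimb _ ⟨v, OpIn_le _ _ (hVOp hv), rfl⟩ ?_ ?_ z hz).symm
      · have h1 : IsPGroup (r : ℕ) V := pCore_isPGroup.to_le hVT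
        obtain ⟨k, hk⟩ := (IsPGroup.iff_orderOf.mp h1) ⟨v, hv⟩
        rw [Subgroup.orderOf_mk] at hk
        rw [subtype_apply, Subgroup.orderOf_coe, hk]
        exact Nat.Coprime.pow_left _ ((Nat.coprime_primes r.2 hp).mpr hrp)
      · intro m hm
        have hmA : m ∈ A := (mem_inf.mp hm).2
        have hmQ : (⟨m, hmA⟩ : ↥A) ∈ Q := (mem_inf.mp hm).1
        have := commute_OpIn hSsn hQP hQS (r : ℕ) hrp (hVOp hv) hmQ
        exact congrArg Subtype.val this
    · have hln : (layer ↥A).Normal := layer_normal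
      rw [← normalizer_map_eq hA (layer ↥A) hl]
      refine le_trans ?_ (centralizer_le_normalizer _)
      rw [le_centralizer_iff, Subgroup.map_le_iff_le_comap, layer, sSup_le_iff]
      intro L hL
      rw [← Subgroup.map_le_iff_le_comap]
      have hLhat : ⁅L.map A.subtype, L.map A.subtype⁆ = L.map A.subtype := by
        rw [← Subgroup.map_commutator, commutator_self_of_quasisimple hL.2]
      apply le_of_forall_coprime (p := p) hLhat
      rintro _ ⟨l, hl', rfl⟩ hlo
      rw [mem_centralizer_iff]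
      intro z hz
      refine (hclimb _ ⟨l, component_le hSsn hSC hL hl', rfl⟩ hlo ?_ z hz).symm
      intro m hm
      have hmA : m ∈ A := (mem_inf.mp hm).2
      have hmQ : (⟨m, hmA⟩ : ↥A) ∈ Q := (mem_inf.mp hm).1
      have := commute_layer hSsn hSC hQP hQS hmQ (le_layer_of_isComponent hL hl')
      exact (congrArg Subtype.val this).symm
  have hxA : x ∈ A := hPiA (hPPi hx)
  have hxQ : (⟨x, hxA⟩ : ↥A) ∈ Q := hPPi hx
  have h1 := pResidual_gF_le p hy
  have h2 : layer ↥A ⊔ Rp p ↥A ≤ centralizer ({(⟨x, hxA⟩ : ↥A)} : Set ↥A) := by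
    refine sup_le ?_ ?_
    · intro u hu
      rw [mem_centralizer_singleton_iff]
      exact (commute_layer hSsn hSC hQP hQS hxQ hu).symm
    · intro u hu
      rw [mem_centralizer_singleton_iff]
      exact (commute_Rp hSF hSsn hSC hQP hQS hxQ hu).symm
  have h3 := mem_centralizer_singleton_iff.mp (h2 h1)
  exact (congrArg Subtype.val h3).symm

end partII

section main

variable {G : Type u} [Group G] [Finite G] [IsSimpleGroup G]

/-- The theorem on maximal subgroups and their generalized Fitting subgroups. -/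
theorem main (A : Subgroup G) (hA : IsCoatom A) (S : Subgroup G)
    (hSF : S ≤ (generalizedFittingSubgroup ↥A).map A.subtype)
    (hSsn : (S.subgroupOf ((generalizedFittingSubgroup ↥A).map A.subtype)).IsSubnormal)
    (hSC : (generalizedFittingSubgroup ↥A).map A.subtype ⊓ centralizer (S : Set G) ≤ S)
    (B : Subgroup G) (hSB : S ≤ B) :
    (∀ q : ℕ, q.Prime → ¬ q ∣ Nat.card (fittingSubgroup ↥A) →
      (pCore q ↥B).map B.subtype ⊓ A = ⊥) ∧
    (∀ p : ℕ, p.Prime → p ∣ Nat.card (fittingSubgroup ↥A) →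
      ∀ x ∈ (pCore p ↥B).map B.subtype,
      ∀ y ∈ (pResidual p ↥(generalizedFittingSubgroup ↥A)).map
        (generalizedFittingSubgroup ↥A).subtype, x * (A.subtype y) = (A.subtype y) * x) := by
  set F : Subgroup G := (generalizedFittingSubgroup ↥A).map A.subtype with hF
  have hFA : F ≤ A := map_subtype_le _
  have hSA : S ≤ A := hSF.trans hFA
  set S' : Subgroup ↥A := S.subgroupOf A with hS'
  have hS'map : S'.map A.subtype = S := by
    rw [hS', subgroupOf_map_subtype]
    exact inf_eq_left.mpr hSA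
  have hSF' : S' ≤ generalizedFittingSubgroup ↥A := by
    intro s hs
    have h1 : (s : G) ∈ F := hSF hs
    obtain ⟨t, ht, hts⟩ := h1
    have : t = s := Subtype.ext hts
    rw [← this]; exact ht
  have hgn : (generalizedFittingSubgroup ↥A).Normal := generalizedFitting_normal
  have hSsn' : S'.IsSubnormal := by
    let f : ↥(generalizedFittingSubgroup ↥A) →* ↥F :=
      (A.subtype.comp (generalizedFittingSubgroup ↥A).subtype).codRestrict F
        (fun x => ⟨x.1, x.2, rfl⟩)
    have h1 := hSsn.comap f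
    have h2 : (S'.subgroupOf (generalizedFittingSubgroup ↥A)).IsSubnormal := h1
    exact h2.trans hSF' hgn.isSubnormal
  have hSC' : generalizedFittingSubgroup ↥A ⊓ centralizer (S' : Set ↥A) ≤ S' := by
    intro x hx
    have h1 : (x : G) ∈ F ⊓ centralizer (S : Set G) := by
      refine mem_inf.mpr ⟨⟨x, (mem_inf.mp hx).1, rfl⟩, ?_⟩
      rw [mem_centralizer_iff]
      intro s hs
      have h2 := (mem_centralizer_iff.mp (mem_inf.mp hx).2) ⟨s, hSA hs⟩ hs
      exact congrArg Subtype.val h2
    exact hSC h1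
  have hNorm : ∀ (r : ℕ) [Fact r.Prime], S ≤ normalizer (((pCore r ↥B).map B.subtype : Subgroup G) : Set G) := by
    intro r _ s hs
    have h1 : (⟨s, hSB hs⟩ : ↥B) ∈ normalizer ((pCore r ↥B : Subgroup ↥B) : Set ↥B) := by
      rw [normalizer_eq_top_iff.mpr (pCore_normal r ↥B)]; exact mem_top _
    exact Subgroup.le_normalizer_map _ ⟨_, h1, rfl⟩
  constructor
  · intro q hq hqd
    have : Fact q.Prime := ⟨hq⟩
    set Pq : Subgroup G := (pCore q ↥B).map B.subtype with hPq
    have hPqp : IsPGroup q Pq := pCore_isPGroup.map _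
    set Q : Subgroup ↥A := Pq.subgroupOf A with hQ
    have hQp : IsPGroup q Q := hPqp.comap_subtype
    have hQS : S' ≤ normalizer (Q : Set ↥A) := by
      rw [le_normalizer_iff]
      intro s hs z hz
      exact (le_normalizer_iff.mp (hNorm q)) _ hs _ hz
    have hQb := eq_bot_of_not_dvd hSF' hSsn' hSC' hQp hQS hqd
    rw [eq_bot_iff]
    intro z hz
    have h1 : (⟨z, (mem_inf.mp hz).2⟩ : ↥A) ∈ Q := (mem_inf.mp hz).1
    rw [hQb, mem_bot] at h1
    exact mem_bot.mpr (congrArg Subtype.val h1)
  · intro p hp hpd x hx y hy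
    have : Fact p.Prime := ⟨hp⟩
    have hPp : IsPGroup p ((pCore p ↥B).map B.subtype) := pCore_isPGroup.map _
    exact commute_of_dvd hA hSF' hSsn' hSC' p hpd hPp (by rw [hS'map]; exact hNorm p) hx hy

end main

end Cfsg.Agent.Lib.Components.MaxOp
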