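import Cfsg.Agent.Lib.Components.MaxOp
import Cfsg.Agent.Lib.LocalEven.PMinimal
import Cfsg.Agent.Lib.QuadAct.Basic

/-!
# `p`-minimal groups with `O_p = 1`
-/

set_option autoImplicit false
set_option linter.unusedSectionVars false

namespace Cfsg.Agent.Lib.Components.PMinimalComp

open Cfsg Subgroup Cfsg.Agent.Lib.CharP.Basic Cfsg.Agent.Lib.Components.CommAct
open Cfsg.Agent.Lib.Components.Basic Cfsg.Agent.Lib.Components.Layer
open Cfsg.Agent.Lib.Core.Basic Cfsg.Agent.Lib.Core.Residual
open Cfsg.Agent.Lib.Components.GenFitting Cfsg.Agent.Lib.Components.FrattiniQuot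
open Cfsg.Agent.Lib.Components.MaxOp Cfsg.Agent.Lib.LocalEven.PMinimal
open Cfsg.Agent.Lib.Coprime.Action Cfsg.Agent.Lib.LocalEven.Util Cfsg.Agent.Lib.Subnormal.Basic
open scoped commutatorElement Pointwise

universe u

variable {P : Type u} [Group P] [Finite P] {p : ℕ} [Fact p.Prime]

theorem isCoatom_map_conj (g : P) {M : Subgroup P} (hM : IsCoatom M) :
    IsCoatom (M.map (MulAut.conj g).toMonoidHom) :=
  ((MulEquiv.mapSubgroup (MulAut.conj g)).isCoatom_iff M).mpr hM

theorem map_conj_inv_map_conj (g : P) (M : Subgroup P) :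
    (M.map (MulAut.conj g).toMonoidHom).map (MulAut.conj g⁻¹).toMonoidHom = M := by
  rw [Subgroup.map_map]
  ext x
  have h : ∀ y, g⁻¹ * (g * y * g⁻¹) * g = y := by intro y; group
  simp [Subgroup.mem_map, h]

/-- `p`-minimality from one Sylow subgroup. -/
theorem isPMinimal_of_sylow (S : Sylow p P) (hS : ¬ (S : Subgroup P).Normal)
    (h : ∃! M : Subgroup P, IsCoatom M ∧ (S : Subgroup P) ≤ M) : IsPMinimal p P := by
  intro T
  obtain ⟨g, hg⟩ := MulAction.exists_smul_eq P S T
  have hT : (T : Subgroup P) = (S : Subgroup P).map (MulAut.conj g).toMonoidHom := by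
    rw [← hg]; rfl
  constructor
  · intro hn
    apply hS
    constructor
    intro x hx y
    have h1 : g * x * g⁻¹ ∈ (T : Subgroup P) := by
      rw [hT]; exact ⟨x, hx, rfl⟩
    have h2 := hn.conj_mem _ h1 (g * y * g⁻¹)
    rw [hT] at h2
    obtain ⟨z, hz, hze⟩ := h2
    have h3 : g * z * g⁻¹ = g * (y * x * y⁻¹) * g⁻¹ := by
      have : g * z * g⁻¹ = (MulAut.conj g).toMonoidHom z := rfl
      rw [this, hze]; group
    have h4 : z = y * x * y⁻¹ := mul_left_cancel (mul_right_cancel h3)
    rw [← h4]; exact hz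
  · obtain ⟨M, ⟨hM, hSM⟩, huniq⟩ := h
    refine ⟨M.map (MulAut.conj g).toMonoidHom, ⟨isCoatom_map_conj g hM, ?_⟩, ?_⟩
    · rw [hT]; exact map_mono hSM
    · rintro C ⟨hC, hTC⟩
      have h1 := huniq (C.map (MulAut.conj g⁻¹).toMonoidHom) ⟨isCoatom_map_conj g⁻¹ hC, by
        rw [hT] at hTC
        have := map_mono (f := (MulAut.conj g⁻¹).toMonoidHom) hTC
        rwa [map_conj_inv_map_conj] at this⟩
      rw [← h1]
      have := map_conj_inv_map_conj g⁻¹ C
      rw [inv_inv] at this
      exact this.symm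

/-- `O_{p'}(P)` is nilpotent in a `p`-minimal group. -/
theorem pPrimeCore_le_fitting (hP : IsPMinimal p P) : pPrimeCore p P ≤ fittingSubgroup P := by
  let S : Sylow p P := Classical.arbitrary _
  obtain ⟨-, M, ⟨hM, hSM⟩, -⟩ := hP S
  set N := pPrimeCore p P with hN
  have hNn : N.Normal := pPrimeCore_normal p P
  have hNc : (Nat.card N).Coprime p := pPrimeCore_coprime
  have hSN : (S : Subgroup P) ≤ normalizer (N : Set P) := by
    rw [normalizer_eq_top_iff.mpr hNn]; exact le_top
  have hcop : (Nat.card (S : Subgroup P)).Coprime (Nat.card N) := by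
    obtain ⟨n, hn⟩ := IsPGroup.iff_card.mp S.isPGroup'
    rw [hn]
    exact Nat.Coprime.pow_left _ hNc.symm
  have hsolv : Group.IsSolvable (S : Subgroup P) := by
    have : Group.IsNilpotent (S : Subgroup P) := S.isPGroup'.isNilpotent
    infer_instance
  have hinf : N ⊓ (S : Subgroup P) = ⊥ := by
    rw [inf_comm]; exact inf_eq_bot_of_isPGroup_of_coprime S.isPGroup' hNc
  have hNfit : ∀ (r : ℕ) [Fact r.Prime] {R : Subgroup P}, IsSylowIn r R N → R.Normal →
      R ≤ fittingSubgroup P := by
    intro r _ R hR hRn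
    exact (Cfsg.Agent.Lib.Core.Basic.le_pCore hRn hR.2.1).trans (pCore_le_fittingSubgroup r)
  by_cases hex : ∃ (r : ℕ) (_ : Fact r.Prime) (R : Subgroup P), IsSylowIn r R N ∧
      (S : Subgroup P) ≤ normalizer (R : Set P) ∧ R ⊔ (S : Subgroup P) = ⊤
  · obtain ⟨r, _, R, hR, hRS, hRtop⟩ := hex
    have hNR : N ≤ R := by
      intro x hx
      have hx2 : x ∈ (S : Subgroup P) ⊔ R := by
        rw [sup_comm, hRtop]; exact mem_top _
      obtain ⟨a, ha, b, hb, hab⟩ := mem_sup_of_le_normalizer hRS hx2
      have ha2 : a ∈ N := by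
        have : a = x * b⁻¹ := by rw [← hab]; group
        rw [this]
        exact mul_mem hx (inv_mem (hR.1 hb))
      have ha3 : a ∈ N ⊓ (S : Subgroup P) := mem_inf.mpr ⟨ha2, ha⟩
      rw [hinf, mem_bot] at ha3
      rw [← hab, ha3, one_mul]
      exact hb
    have hRN : R = N := le_antisymm hR.1 hNR
    rw [← hRN]
    exact hNfit r hR (by rw [hRN]; exact hNn)
  · push Not at hex
    -- every invariant Sylow subgroup lies in `M`
    have hkey : ∀ (r : ℕ) [Fact r.Prime], ∃ R : Subgroup P, IsSylowIn r R N ∧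
        (S : Subgroup P) ≤ normalizer (R : Set P) ∧ R ≤ M := by
      intro r _
      obtain ⟨R, hR, hRS⟩ := exists_invariant_sylowIn (p := r) hSN hcop (Or.inl hsolv)
      refine ⟨R, hR, hRS, ?_⟩
      have h1 := hex r inferInstance R hR hRS
      exact le_sup_left.trans (le_of_sylow_le hP S hM hSM le_sup_right h1)
    have hNM : N ≤ M := by
      have hX : M.subgroupOf N = ⊤ := by
        apply eq_top_of_forall_sylow_le
        intro r _
        obtain ⟨R, hR, -, hRM⟩ := hkey r
        obtain ⟨P', hP'⟩ := exists_sylow_of_isSylowIn hR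
        refine ⟨P', ?_⟩
        intro y hy
        rw [mem_subgroupOf]
        apply hRM
        rw [← hP']
        exact ⟨y, hy, rfl⟩
      intro y hy
      have : (⟨y, hy⟩ : N) ∈ M.subgroupOf N := by rw [hX]; exact mem_top _
      exact this
    have hX : (fittingSubgroup P).subgroupOf N = ⊤ := by
      apply eq_top_of_forall_sylow_le
      intro r _
      obtain ⟨R, hR, hRS, -⟩ := hkey r
      obtain ⟨P', hP'⟩ := exists_sylow_of_isSylowIn hR
      refine ⟨P', ?_⟩
      have hRn : R.Normal := by
        rw [← normalizer_eq_top_iff]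
        by_contra hne
        have hle := le_of_sylow_le hP S hM hSM hRS hne
        apply hM.1
        rw [eq_top_iff]
        intro g _
        have h1 := hR.conj_of_mem_normalizer (a := g) (by
          rw [normalizer_eq_top_iff.mpr hNn]; exact mem_top _)
        obtain ⟨e, he, hee⟩ := hR.exists_conj h1
        have h2 : e⁻¹ * g ∈ normalizer (R : Set P) := by
          apply mem_normalizer_of_conj_smul_eq
          have e1 : MulAut.conj (e⁻¹ * g) • R = MulAut.conj e⁻¹ • (MulAut.conj g • R) := by
            rw [map_mul, mul_smul]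
          rw [e1, ← hee]
          exact conj_inv_conj e R
        have h3 := mul_mem (hNM he) (hle h2)
        simpa using h3
      intro y hy
      rw [mem_subgroupOf]
      apply hNfit r hR hRn
      rw [← hP']
      exact ⟨y, hy, rfl⟩
    intro y hy
    have : (⟨y, hy⟩ : N) ∈ (fittingSubgroup P).subgroupOf N := by rw [hX]; exact mem_top _
    exact this

theorem map_conj_mul (a b : P) (V : Subgroup P) :
    V.map (MulAut.conj (a * b)).toMonoidHom =
      (V.map (MulAut.conj b).toMonoidHom).map (MulAut.conj a).toMonoidHom := by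
  rw [Subgroup.map_map]
  congr 1
  ext x
  simp [mul_assoc]

theorem map_conj_one (V : Subgroup P) : V.map (MulAut.conj (1 : P)).toMonoidHom = V := by
  ext x
  simp [Subgroup.mem_map]

/-- The setwise stabilizer of a set of subgroups, under conjugation. -/
def setStab (U : Set (Subgroup P)) : Subgroup P where
  carrier := {g | ∀ V ∈ U, V.map (MulAut.conj g).toMonoidHom ∈ U}
  mul_mem' := by
    intro a b ha hb V hV
    rw [map_conj_mul]
    exact ha _ (hb V hV)
  one_mem' := by
    intro V hV
    rwa [map_conj_one]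
  inv_mem' := by
    intro g hg
    have hpow : ∀ n : ℕ, ∀ V ∈ U, V.map (MulAut.conj (g ^ n)).toMonoidHom ∈ U := by
      intro n
      induction n with
      | zero =>
        intro V hV
        rwa [pow_zero, map_conj_one]
      | succ n ih =>
        intro V hV
        rw [pow_succ, map_conj_mul]
        exact ih _ (hg V hV)
    have hinv : g⁻¹ = g ^ (orderOf g - 1) := by
      have h1 : g ^ (orderOf g - 1) * g = 1 := by
        rw [← pow_succ, Nat.sub_add_cancel (orderOf_pos g), pow_orderOf_eq_one]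
      exact (eq_inv_of_mul_eq_one_left h1).symm
    intro V hV
    rw [hinv]
    exact hpow _ V hV

theorem mem_setStab {U : Set (Subgroup P)} {g : P} :
    g ∈ setStab U ↔ ∀ V ∈ U, V.map (MulAut.conj g).toMonoidHom ∈ U := Iff.rfl

section main

variable (hP : IsPMinimal p P) (hOp : pCore p P = ⊥) (S : Sylow p P) {K : Subgroup P}
  (hK : IsComponent K) {M : Subgroup P} (hM : IsCoatom M) (hSM : (S : Subgroup P) ≤ M)

include hP hOp hK in
/-- `S ∩ K` is not central in `K`. -/
theorem inf_sylow_not_central : ¬ ((S : Subgroup P) ⊓ K ≤ centralizer (K : Set P)) := by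
  intro hc
  have hsn : ((S : Subgroup P) ⊓ K).IsSubnormal := by
    refine IsSubnormal.step _ K inf_le_right hK.1 ?_
    constructor
    intro y hy k
    have h1 : (y : P) ∈ (S : Subgroup P) ⊓ K := hy
    have h2 := (mem_centralizer_iff.mp (hc h1)) k k.2
    rw [mem_subgroupOf]
    have h3 : ((k * y * k⁻¹ : K) : P) = y := by
      simp only [Subgroup.coe_mul, Subgroup.coe_inv]
      rw [h2]; group
    rw [h3]
    exact hy
  have h1 : (S : Subgroup P) ⊓ K ≤ pCore p P :=
    le_pCore_of_isSubnormal hsn (S.isPGroup'.to_le inf_le_left)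
  rw [hOp] at h1
  have h2 : (S : Subgroup P) ⊓ K = ⊥ := le_bot_iff.mp h1
  have h3 := Cfsg.Agent.Lib.Components.SylowSub.not_dvd_relIndex S hK.1
  rw [← Subgroup.inf_relIndex_right, h2, Subgroup.relIndex_bot_left] at h3
  have h4 : (Nat.card K).Coprime p :=
    ((Nat.Prime.coprime_iff_not_dvd Fact.out).mpr h3).symm
  have h5 : K ≤ pPrimeCore p P := le_pPrimeCore_of_isSubnormal hK.1 h4
  exact quasisimple_not_nilpotent hK.2
    (nilpotent_of_subgroup_le (h5.trans (pPrimeCore_le_fitting hP)) fittingSubgroup_isNilpotent)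

include hP hOp hK hM hSM in
theorem not_le_M : ¬ K ≤ M := by
  intro hKM
  have h1 := inf_sylow_le_pCore hP S hM hSM hK.1 hKM
  rw [hOp] at h1
  apply inf_sylow_not_central hP hOp S hK
  rw [inf_comm, le_bot_iff.mp h1]
  exact bot_le

include hP hOp hK hM hSM in
theorem sup_eq_top : K ⊔ (S : Subgroup P) = ⊤ := by
  by_contra hne
  exact not_le_M hP hOp S hK hM hSM
    (le_sup_left.trans (le_of_sylow_le hP S hM hSM le_sup_right hne))

/-- The product of the `S`-conjugates of `K`. -/
def Lp (S : Sylow p P) (K : Subgroup P) : Subgroup P :=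
  ⨆ s : ↥(S : Subgroup P), K.map (MulAut.conj (s : P)).toMonoidHom

omit hP hOp hK in
theorem le_Lp : K ≤ Lp S K := by
  refine le_trans ?_ (le_iSup (fun s : ↥(S : Subgroup P) =>
    K.map (MulAut.conj (s : P)).toMonoidHom) 1)
  intro x hx
  exact ⟨x, hx, by simp⟩

omit hP hOp in
include hK in
theorem Lp_le_layer : Lp S K ≤ layer P :=
  iSup_le fun _ => le_layer_of_isComponent (isComponent_conj _ hK)

include hP hOp hK hM hSM in
theorem Lp_normal : (Lp S K).Normal := by
  rw [← normalizer_eq_top_iff, eq_top_iff, ← sup_eq_top hP hOp S hK hM hSM]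
  refine sup_le ?_ ?_
  · intro x hx
    apply mem_normalizer_of_conj_le
    have h1 : Lp S K ≤ (Lp S K).comap (MulAut.conj x).toMonoidHom := by
      refine iSup_le fun t => ?_
      rintro _ ⟨y, hy, rfl⟩
      rw [mem_comap]
      rcases component_eq_or_commutator_eq_bot hK (isComponent_conj (t : P) hK) with h | h
      · refine (le_Lp S) ?_
        have hy2 : (MulAut.conj (t : P)).toMonoidHom y ∈ K := by
          rw [h]; exact ⟨y, hy, rfl⟩
        exact mul_mem (mul_mem hx hy2) (inv_mem hx)
      · have h2 : ⁅x, (MulAut.conj (t : P)).toMonoidHom y⁆ ∈ ⁅K, K.map (MulAut.conj (t : P)).toMonoidHom⁆ :=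
          commutator_mem_commutator hx ⟨y, hy, rfl⟩
        rw [h, mem_bot, commutatorElement_eq_one_iff_commute] at h2
        have h3 : (MulAut.conj x).toMonoidHom ((MulAut.conj (t : P)).toMonoidHom y) =
            (MulAut.conj (t : P)).toMonoidHom y := by
          change x * _ * x⁻¹ = _
          rw [h2.eq]; group
        rw [h3]
        exact (le_iSup (fun s : ↥(S : Subgroup P) =>
          K.map (MulAut.conj (s : P)).toMonoidHom) t) ⟨y, hy, rfl⟩
    intro y hy
    exact h1 hy
  · intro s hs
    apply mem_normalizer_of_conj_le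
    have h1 : Lp S K ≤ (Lp S K).comap (MulAut.conj s).toMonoidHom := by
      refine iSup_le fun t => ?_
      rintro _ ⟨y, hy, rfl⟩
      rw [mem_comap]
      refine (le_iSup (fun s : ↥(S : Subgroup P) =>
          K.map (MulAut.conj (s : P)).toMonoidHom) (⟨s, hs⟩ * t)) ?_
      refine ⟨y, hy, ?_⟩
      simp [mul_assoc]
    intro y hy
    exact h1 hy

include hP hOp hK hM hSM in
theorem pResidual_eq_Lp : pResidual p P = Lp S K := by
  have hLn := Lp_normal hP hOp S hK hM hSM
  apply le_antisymm
  · rcases pResidual_le_or_le_normalCore hP S hM hSM hLn with h | h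
    · exact h
    · exfalso
      exact not_le_M hP hOp S hK hM hSM
        ((le_Lp S).trans (h.trans (Subgroup.normalCore_le M)))
  · refine iSup_le fun t => ?_
    have hK' := isComponent_conj (t : P) hK
    apply le_of_forall_coprime (p := p) (commutator_self_of_quasisimple hK'.2)
    intro l _ hlc
    exact mem_pResidual_of_coprime hlc

include hP hOp hK hM hSM in
theorem layer_eq_Lp : layer P = Lp S K := by
  apply le_antisymm _ (Lp_le_layer S hK)
  rw [← pResidual_eq_Lp hP hOp S hK hM hSM, layer, sSup_le_iff]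
  intro L hL
  apply le_of_forall_coprime (p := p) (commutator_self_of_quasisimple hL.2)
  intro l _ hlc
  exact mem_pResidual_of_coprime hlc

include hP hOp hK hM hSM in
theorem gF_eq_layer : generalizedFittingSubgroup P = layer P := by
  apply le_antisymm _ le_sup_left
  refine sup_le le_rfl ?_
  rw [layer_eq_Lp hP hOp S hK hM hSM, ← pResidual_eq_Lp hP hOp S hK hM hSM]
  intro x hx
  have h1 := fitting_le_sup p hx
  rw [hOp, bot_sup_eq] at h1
  exact mem_pResidual_of_coprime (orderOf_coprime_of_mem_pPrimeCore (Rp_le_pPrimeCore p h1))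

include hP hOp hK hM hSM in
/-- The key lemma: `U₀` lies in the unique maximal subgroup. -/
theorem le_M_of_sub {U₀ : Subgroup P} (hle : U₀ ≤ K) (hne : U₀ ≠ K)
    (hSU : (S : Subgroup P) ⊓ K ≤ U₀)
    (hS₁ : (S : Subgroup P) ⊓ normalizer (K : Set P) ≤ normalizer (U₀ : Set P)) : U₀ ≤ M := by
  set 𝓤 : Set (Subgroup P) := {V | ∃ s ∈ (S : Subgroup P), V = U₀.map (MulAut.conj s).toMonoidHom}
    with h𝓤
  have hcases : ∀ t ∈ (S : Subgroup P), (U₀.map (MulAut.conj t).toMonoidHom = U₀) ∨
      (∀ y ∈ U₀.map (MulAut.conj t).toMonoidHom, ∀ x ∈ K, x * y = y * x) := by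
    intro t ht
    rcases component_eq_or_commutator_eq_bot hK (isComponent_conj t hK) with h | h
    · left
      have h1 : t ∈ normalizer (K : Set P) := by
        apply mem_normalizer_of_conj_le
        intro y hy
        rw [h]
        exact ⟨y, hy, rfl⟩
      have h2 := hS₁ (mem_inf.mpr ⟨ht, h1⟩)
      exact mem_normalizer_iff_map_conj_eq.mp h2
    · right
      rintro _ ⟨u, hu, rfl⟩ x hx
      have h2 : ⁅x, (MulAut.conj t).toMonoidHom u⁆ ∈ ⁅K, K.map (MulAut.conj t).toMonoidHom⁆ :=
        commutator_mem_commutator hx ⟨u, hle hu, rfl⟩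
      rw [h, mem_bot, commutatorElement_eq_one_iff_commute] at h2
      exact h2
  have hSH : (S : Subgroup P) ≤ setStab 𝓤 := by
    intro s hs
    rw [mem_setStab]
    rintro V ⟨t, ht, rfl⟩
    refine ⟨s * t, mul_mem hs ht, ?_⟩
    rw [map_conj_mul]
  have hUH : U₀ ≤ setStab 𝓤 := by
    intro u hu
    rw [mem_setStab]
    rintro V ⟨t, ht, rfl⟩
    refine ⟨t, ht, ?_⟩
    rcases hcases t ht with h | h
    · rw [h]
      ext y
      constructor
      · rintro ⟨z, hz, rfl⟩
        exact mul_mem (mul_mem hu hz) (inv_mem hu)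
      · intro hy
        refine ⟨u⁻¹ * y * u, mul_mem (mul_mem (inv_mem hu) hy) hu, ?_⟩
        change u * (u⁻¹ * y * u) * u⁻¹ = y
        group
    · ext y
      constructor
      · rintro ⟨z, hz, rfl⟩
        have h1 := h z hz u (hle hu)
        have : (MulAut.conj u).toMonoidHom z = z := by
          change u * z * u⁻¹ = z
          rw [h1]; group
        rw [this]
        exact hz
      · intro hy
        refine ⟨y, hy, ?_⟩
        have h1 := h y hy u (hle hu)
        change u * y * u⁻¹ = y
        rw [h1]; group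
  have hHne : setStab 𝓤 ≠ ⊤ := by
    intro htop
    have hnc : ¬ U₀ ≤ centralizer (K : Set P) := fun h =>
      inf_sylow_not_central hP hOp S hK (hSU.trans h)
    have hKN : K ≤ normalizer (U₀ : Set P) := by
      intro x hx
      have hxH : x ∈ setStab 𝓤 := by rw [htop]; exact mem_top _
      have h1 : U₀.map (MulAut.conj x).toMonoidHom ∈ 𝓤 :=
        (mem_setStab.mp hxH) U₀ ⟨1, one_mem _, (map_conj_one U₀).symm⟩
      obtain ⟨t, ht, hte⟩ := h1
      rcases hcases t ht with h | h
      · rw [h] at hte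
        exact mem_normalizer_iff_map_conj_eq.mpr hte
      · exfalso
        apply hnc
        intro u hu
        rw [mem_centralizer_iff]
        intro k hk
        have h2 : x * u * x⁻¹ ∈ U₀.map (MulAut.conj t).toMonoidHom := by
          rw [← hte]; exact ⟨u, hu, rfl⟩
        have h3 := h _ h2 k hk
        have h4 := h _ h2 x hx
        -- `x u x⁻¹ = u`
        have h5 : x * u * x⁻¹ = u := by
          have : x * (x * u * x⁻¹) = (x * u * x⁻¹) * x := h4
          have h6 : x * (x * u * x⁻¹) * x⁻¹ = x * u * x⁻¹ := by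
            rw [this]; group
          have h7 : x * (x * u * x⁻¹) = x * u := mul_right_cancel h6
          exact mul_left_cancel h7
        rw [h5] at h3
        exact h3
    have hn : (U₀.subgroupOf K).Normal := normal_subgroupOf_of_le_normalizer hKN
    rcases normal_eq_top_or_le_center hK.2 (U₀.subgroupOf K) with h | h
    · apply hne
      apply le_antisymm hle
      intro x hx
      have : (⟨x, hx⟩ : K) ∈ U₀.subgroupOf K := by rw [h]; exact mem_top _
      exact this
    · apply hnc
      intro u hu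
      rw [mem_centralizer_iff]
      intro k hk
      have h1 : (⟨u, hle hu⟩ : K) ∈ U₀.subgroupOf K := hu
      have h2 := (mem_center_iff.mp (h h1)) ⟨k, hk⟩
      exact congrArg Subtype.val h2
  exact hUH.trans (le_of_sylow_le hP S hM hSM hSH hHne)

/-- The subgroup `K N_S(K)`. -/
def Qp (S : Sylow p P) (K : Subgroup P) : Subgroup P :=
  K ⊔ ((S : Subgroup P) ⊓ normalizer (K : Set P))

include hP hOp hK hM hSM in
theorem le_M_of_le_Qp {U : Subgroup P} (hSU : (S : Subgroup P) ⊓ normalizer (K : Set P) ≤ U)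
    (hUQ : U ≤ Qp S K) (hne : U ≠ Qp S K) : U ≤ M := by
  set S₁ := (S : Subgroup P) ⊓ normalizer (K : Set P) with hS₁
  have hS₁N : S₁ ≤ normalizer (K : Set P) := inf_le_right
  have hU₀ : U ⊓ K ≤ M := by
    apply le_M_of_sub hP hOp S hK hM hSM inf_le_right
    · intro h
      apply hne
      apply le_antisymm hUQ
      refine sup_le ?_ hSU
      rw [← h]
      exact inf_le_left
    · refine le_inf ?_ inf_le_right
      refine le_trans ?_ hSU
      exact inf_le_inf_left _ le_normalizer
    · intro s hs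
      have hsU : s ∈ U := hSU hs
      apply mem_normalizer_of_conj_le
      intro y hy
      exact mem_inf.mpr ⟨mul_mem (mul_mem hsU (mem_inf.mp hy).1) (inv_mem hsU),
        (le_normalizer_iff.mp hS₁N) s hs y (mem_inf.mp hy).2⟩
  intro u hu
  have hu2 : u ∈ S₁ ⊔ K := by
    have := hUQ hu
    rw [Qp, sup_comm] at this
    exact this
  obtain ⟨a, ha, b, hb, hab⟩ := mem_sup_of_le_normalizer hS₁N hu2
  have hbU : b ∈ U := by
    have e : b = a⁻¹ * u := by rw [← hab]; group
    rw [e]
    exact mul_mem (inv_mem (hSU ha)) hu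
  rw [← hab]
  exact mul_mem (hSM (mem_inf.mp ha).1) (hU₀ (mem_inf.mpr ⟨hbU, hb⟩))

include hK in
omit hP hOp in
theorem isSylowIn_Qp : IsSylowIn p ((S : Subgroup P) ⊓ normalizer (K : Set P)) (Qp S K) := by
  set S₁ := (S : Subgroup P) ⊓ normalizer (K : Set P) with hS₁
  have hS₁N : S₁ ≤ normalizer (K : Set P) := inf_le_right
  have hinf : S₁ ⊓ K = (S : Subgroup P) ⊓ K := by
    apply le_antisymm
    · exact inf_le_inf_right _ inf_le_left
    · exact le_inf (inf_le_inf_right _ (le_refl _) |>.trans (le_inf inf_le_left (inf_le_right.trans le_normalizer))) inf_le_right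
  refine ⟨le_sup_right, S.isPGroup'.to_le inf_le_left, ?_⟩
  have h1 := Cfsg.Agent.Lib.QuadAct.Basic.card_sup_mul_card_inf_of_le_normalizer S₁ K hS₁N
  have h2 := card_eq_card_mul_relIndex (H := S₁) (K := Qp S K) le_sup_right
  have h3 := card_eq_card_mul_relIndex (H := (S : Subgroup P) ⊓ K) (K := K) inf_le_right
  have h4 : Nat.card (S₁ ⊔ K : Subgroup P) = Nat.card (Qp S K) := by
    rw [Qp, sup_comm]
  rw [h4, h2, hinf, h3] at h1
  have hpos1 : Nat.card S₁ ≠ 0 := Nat.card_pos.ne'
  have hpos2 : Nat.card ((S : Subgroup P) ⊓ K : Subgroup P) ≠ 0 := Nat.card_pos.ne'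
  have h5 : S₁.relIndex (Qp S K) = ((S : Subgroup P) ⊓ K).relIndex K := by
    have h6 : Nat.card S₁ * Nat.card ((S : Subgroup P) ⊓ K : Subgroup P) * S₁.relIndex (Qp S K) =
        Nat.card S₁ * Nat.card ((S : Subgroup P) ⊓ K : Subgroup P) *
          ((S : Subgroup P) ⊓ K).relIndex K := by
      calc _ = Nat.card S₁ * S₁.relIndex (Qp S K) * Nat.card ((S : Subgroup P) ⊓ K : Subgroup P) := by ring
        _ = Nat.card S₁ * (Nat.card ((S : Subgroup P) ⊓ K : Subgroup P) *
            ((S : Subgroup P) ⊓ K).relIndex K) := h1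
        _ = _ := by ring
    exact Nat.eq_of_mul_eq_mul_left (Nat.pos_of_ne_zero (mul_ne_zero hpos1 hpos2)) h6
  rw [h5, Subgroup.inf_relIndex_right]
  exact Cfsg.Agent.Lib.Components.SylowSub.not_dvd_relIndex S hK.1

include hP hOp hK hM hSM in
theorem isPMinimal_Qp : IsPMinimal p (Qp S K) := by
  set S₁ := (S : Subgroup P) ⊓ normalizer (K : Set P) with hS₁
  set Q := Qp S K with hQ
  have hS₁Q : S₁ ≤ Q := le_sup_right
  have hKQ : K ≤ Q := le_sup_left
  obtain ⟨T₀, hT₀⟩ := exists_sylow_of_isSylowIn (isSylowIn_Qp S hK)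
  have hT₀le : ∀ x : Q, x ∈ (T₀ : Subgroup Q) ↔ (x : P) ∈ S₁ := by
    intro x
    rw [hS₁, ← hT₀]
    constructor
    · intro hx
      exact ⟨x, hx, rfl⟩
    · rintro ⟨y, hy, hye⟩
      have : y = x := Subtype.ext hye
      rw [← this]; exact hy
  apply isPMinimal_of_sylow T₀
  · intro hn
    have hN : ((S : Subgroup P) ⊓ K).subgroupOf K |>.Normal := by
      constructor
      intro y hy k
      have hy' : (y : P) ∈ (S : Subgroup P) ⊓ K := hy
      have hy1 : (⟨y, hKQ y.2⟩ : Q) ∈ (T₀ : Subgroup Q) := by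
        rw [hT₀le]
        exact mem_inf.mpr ⟨(mem_inf.mp hy').1, le_normalizer y.2⟩
      have h1 := hn.conj_mem _ hy1 ⟨k, hKQ k.2⟩
      rw [hT₀le] at h1
      rw [mem_subgroupOf]
      exact mem_inf.mpr ⟨(mem_inf.mp h1).1, (k * y * k⁻¹).2⟩
    rcases normal_eq_top_or_le_center hK.2 (((S : Subgroup P) ⊓ K).subgroupOf K) with h | h
    · have hKS : K ≤ (S : Subgroup P) := by
        intro x hx
        have : (⟨x, hx⟩ : K) ∈ ((S : Subgroup P) ⊓ K).subgroupOf K := by rw [h]; exact mem_top _
        exact (mem_inf.mp this).1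
      have h1 : IsPGroup p K := S.isPGroup'.to_le hKS
      exact quasisimple_not_nilpotent hK.2 h1.isNilpotent
    · apply inf_sylow_not_central hP hOp S hK
      intro u hu
      rw [mem_centralizer_iff]
      intro k hk
      have h1 : (⟨u, (mem_inf.mp hu).2⟩ : K) ∈ ((S : Subgroup P) ⊓ K).subgroupOf K := hu
      have h2 := (mem_center_iff.mp (h h1)) ⟨k, hk⟩
      exact congrArg Subtype.val h2
  · have hQM : ¬ Q ≤ M := fun h => not_le_M hP hOp S hK hM hSM (hKQ.trans h)
    set M' : Subgroup Q := M.subgroupOf Q with hM'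
    have hM'ne : M' ≠ ⊤ := by
      intro h
      apply hQM
      intro x hx
      have : (⟨x, hx⟩ : Q) ∈ M' := by rw [h]; exact mem_top _
      exact this
    have hbound : ∀ W : Subgroup Q, (T₀ : Subgroup Q) ≤ W → W ≠ ⊤ → W ≤ M' := by
      intro W hW hWne
      have h1 : W.map Q.subtype ≤ M := by
        apply le_M_of_le_Qp hP hOp S hK hM hSM
        · intro s hs
          have hsQ : s ∈ Q := hS₁Q hs
          have : (⟨s, hsQ⟩ : Q) ∈ (T₀ : Subgroup Q) := (hT₀le _).mpr hs
          exact ⟨_, hW this, rfl⟩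
        · exact map_subtype_le _
        · intro h
          apply hWne
          rw [eq_top_iff]
          intro x _
          have hx : (x : P) ∈ W.map Q.subtype := by rw [h]; exact x.2
          obtain ⟨y, hy, hye⟩ := hx
          have : y = x := Subtype.ext hye
          rw [← this]; exact hy
      intro x hx
      exact h1 ⟨x, hx, rfl⟩
    have hT₀M' : (T₀ : Subgroup Q) ≤ M' := by
      intro x hx
      have h1 := (hT₀le x).mp hx
      exact hSM (mem_inf.mp h1).1
    refine ⟨M', ⟨⟨hM'ne, ?_⟩, hT₀M'⟩, ?_⟩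
    · intro W hW
      by_contra hne
      exact absurd (hbound W (hT₀M'.trans hW.le) hne) (not_le_of_gt hW)
    · rintro C ⟨hC, hTC⟩
      have h1 := hbound C hTC hC.1
      rcases hC.le_iff.mp h1 with h | h
      · exact absurd h hM'ne
      · exact h.symm

end main

/-- The structure of `p`-minimal groups with `O_p = 1` and a component. -/
theorem main (hP : IsPMinimal p P) (hOp : pCore p P = ⊥) (S : Sylow p P) (K : Subgroup P)
    (hK : IsComponent K) :
    pResidual p P = generalizedFittingSubgroup P ∧ generalizedFittingSubgroup P = layer P ∧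
      layer P = ⨆ s : ↥(S : Subgroup P), K.map (MulAut.conj (s : P)).toMonoidHom ∧
      IsPMinimal p ↥(K ⊔ ((S : Subgroup P) ⊓ normalizer (K : Set P))) := by
  obtain ⟨-, M, ⟨hM, hSM⟩, -⟩ := hP S
  have h1 := gF_eq_layer hP hOp S hK hM hSM
  have h2 := layer_eq_Lp hP hOp S hK hM hSM
  have h3 := pResidual_eq_Lp hP hOp S hK hM hSM
  refine ⟨by rw [h1, h2, h3], h1, h2, isPMinimal_Qp hP hOp S hK hM hSM⟩

end Cfsg.Agent.Lib.Components.PMinimalComp
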