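import Cfsg.Agent.Lib.Components.CyclicSylow
import Cfsg.Agent.Lib.Components.HatLayer

/-!
# Unbalancing: the core of an involution centralizer and the components

If `O(W) = 1`, `t` is an involution and `Y ≤ O(C_W(t))` is nontrivial, then `Y` moves (i.e.
doesn't centralize) some `t`-invariant component which is not centralized by `t`.
-/

set_option autoImplicit false
set_option linter.unusedSectionVars false

namespace Cfsg.Agent.Lib.Components.Unbalance

open Cfsg Subgroup Cfsg.Agent.Lib.CharP.Basic Cfsg.Agent.Lib.Components.CommAct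
open Cfsg.Agent.Lib.Components.Basic Cfsg.Agent.Lib.Components.Layer
open Cfsg.Agent.Lib.Core.Basic
open Cfsg.Agent.Lib.Components.GenFitting Cfsg.Agent.Lib.Components.HatLayer
open Cfsg.Agent.Lib.Components.CyclicSylow
open scoped commutatorElement

universe u

variable {W : Type u} [Group W] [Finite W]

/-- A quasisimple subnormal subgroup has a noncentral `p`-element, if `O_{p'}` is trivial. -/
theorem exists_noncentral_pElement {p : ℕ} [Fact p.Prime] (h0 : pPrimeCore p W = ⊥)
    {E : Subgroup W} (hE : IsComponent E) :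
    ∃ e ∈ E, (∃ k : ℕ, e ^ p ^ k = 1) ∧ ∃ f ∈ E, e * f ≠ f * e := by
  by_contra hne
  push Not at hne
  let P : Sylow p E := Classical.arbitrary _
  have hcent : ∀ x : E, x ∈ (P : Subgroup E) → ∀ y : E, x * y = y * x := by
    intro x hx y
    obtain ⟨k, hk⟩ := (IsPGroup.iff_orderOf.mp P.isPGroup') ⟨x, hx⟩
    have h1 : (x : W) ^ p ^ k = 1 := by
      rw [← Subgroup.orderOf_coe, Subgroup.orderOf_coe] at hk
      have h2 : orderOf ((⟨x, hx⟩ : (P : Subgroup E)) : E) = p ^ k := by
        rw [Subgroup.orderOf_coe]; exact hk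
      have h3 : orderOf (x : E) = p ^ k := h2
      have h4 : orderOf (x : W) = p ^ k := by rw [Subgroup.orderOf_coe]; exact h3
      rw [← h4]; exact pow_orderOf_eq_one _
    have := hne x x.2 ⟨k, h1⟩ y y.2
    exact Subtype.ext this
  have hN : normalizer ((P : Subgroup E) : Set E) ≤ centralizer ((P : Subgroup E) : Set E) := by
    intro y _
    rw [mem_centralizer_iff]
    intro x hx
    exact hcent x hx y
  have hc : Nat.Coprime (Nat.card (MonoidHom.transferSylow P hN).ker) p :=
    ((Nat.Prime.coprime_iff_not_dvd Fact.out).mpr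
      (MonoidHom.not_dvd_card_ker_transferSylow P hN)).symm
  have hab : ∀ a b : (P : Subgroup E), a * b = b * a := fun a b => Subtype.ext
    (hcent a a.2 b)
  have hkertop : (MonoidHom.transferSylow P hN).ker = ⊤ := by
    have hperf : commutator E = ⊤ := quasisimple_perfect hE.2
    rw [eq_top_iff, ← hperf, commutator_def, commutator_le]
    intro a _ b _
    rw [MonoidHom.mem_ker, map_commutatorElement, commutatorElement_eq_one_iff_commute]
    exact hab _ _
  have hcE : (Nat.card E).Coprime p := by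
    rw [← Subgroup.card_top (G := E), ← hkertop]; exact hc
  have hle : E ≤ pPrimeCore p W := le_pPrimeCore_of_isSubnormal hE.1 hcE
  rw [h0] at hle
  exact ne_bot_of_quasisimple hE.2 (le_bot_iff.mp hle)

/-- A component `E` on which a homomorphism `δ`, equivariant for `X`, has image normalizing the
odd normal subgroup `N` is centralized by `X`, if the kernel of `δ` on `p`-elements is central. -/
theorem commutator_eq_bot_of_hom {p : ℕ} [Fact p.Prime] (h0 : pPrimeCore p W = ⊥)
    {E : Subgroup W} (hE : IsComponent E) {C : Subgroup W} (X : Subgroup W)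
    (hXN : X ≤ PPIn p C) (hXE : X ≤ normalizer (E : Set W))
    (δ : E →* W) (hδC : ∀ e : E, δ e ∈ C)
    (hδker : ∀ e : E, (∃ k : ℕ, (e : W) ^ p ^ k = 1) → δ e = 1 → ∀ f : E, e * f = f * e)
    (hδX : ∀ x ∈ X, ∀ e : E, ∀ h : x * e * x⁻¹ ∈ E, δ ⟨x * e * x⁻¹, h⟩ = x * δ e * x⁻¹) :
    ⁅E, X⁆ = ⊥ := by
  have hnormalN : C ≤ normalizer ((PPIn p C : Subgroup W) : Set W) :=
    le_normalizer.trans (normalizer_le_normalizer_PPIn C)
  let M : Subgroup E := (PPIn p C).comap δ
  have hMn : M.Normal := by
    constructor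
    intro m hm e
    change δ (e * m * e⁻¹) ∈ PPIn p C
    rw [map_mul, map_mul, map_inv]
    exact (le_normalizer_iff.mp hnormalN) (δ e) (hδC e) (δ m) hm
  have hpE : ⁅E, E⁆ = E := commutator_self_of_quasisimple hE.2
  rcases normal_eq_top_or_le_center hE.2 M with htop | hcen
  · exfalso
    obtain ⟨e, heE, ⟨k, hk⟩, f, hfE, hne⟩ := exists_noncentral_pElement h0 hE
    have h1 : δ ⟨e, heE⟩ ∈ PPIn p C := by
      have : (⟨e, heE⟩ : E) ∈ M := by rw [htop]; exact mem_top _
      exact this
    have h2 : (δ ⟨e, heE⟩) ^ p ^ k = 1 := by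
      rw [← map_pow]
      have : (⟨e, heE⟩ : E) ^ p ^ k = 1 := Subtype.ext hk
      rw [this, map_one]
    have h3 := eq_one_of_mem_PPIn h1 h2
    have h4 := hδker ⟨e, heE⟩ ⟨k, hk⟩ h3 ⟨f, hfE⟩
    exact hne (congrArg Subtype.val h4)
  · apply commutator_eq_bot_of_perfect hpE
    rw [commutator_eq_bot_iff_le_centralizer]
    rw [commutator_le]
    intro e heE x hxX
    rw [mem_centralizer_iff]
    intro f hf
    have hxN : x ∈ normalizer (E : Set W) := hXE hxX
    have hu : x * e⁻¹ * x⁻¹ ∈ E := (le_normalizer_iff.mp hXE) x hxX e⁻¹ (inv_mem heE)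
    have hm : (⟨e, heE⟩ * ⟨x * e⁻¹ * x⁻¹, hu⟩ : E) ∈ M := by
      change δ (⟨e, heE⟩ * ⟨x * e⁻¹ * x⁻¹, hu⟩) ∈ PPIn p C
      rw [map_mul, hδX x hxX ⟨e⁻¹, inv_mem heE⟩ hu]
      have h1 : δ ⟨e⁻¹, inv_mem heE⟩ = (δ ⟨e, heE⟩)⁻¹ := by
        rw [← map_inv]; rfl
      rw [h1]
      have h2 := (le_normalizer_iff.mp hnormalN) (δ ⟨e, heE⟩) (hδC _) x (hXN hxX)
      have h3 : (δ ⟨e, heE⟩) * (x * (δ ⟨e, heE⟩)⁻¹ * x⁻¹) =
          (δ ⟨e, heE⟩ * x * (δ ⟨e, heE⟩)⁻¹) * x⁻¹ := by group
      rw [h3]
      exact mul_mem h2 (inv_mem (hXN hxX))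
    have hc2 := (mem_center_iff.mp (hcen hm)) ⟨f, hf⟩
    have hc3 := congrArg Subtype.val hc2
    simp only [Subgroup.coe_mul] at hc3
    rw [commutatorElement_def]
    calc f * (e * x * e⁻¹ * x⁻¹) = f * (e * (x * e⁻¹ * x⁻¹)) := by group
      _ = e * (x * e⁻¹ * x⁻¹) * f := hc3
      _ = e * x * e⁻¹ * x⁻¹ * f := by group

/-- The normalizer of an involution's cyclic group is its centralizer. -/
theorem normalizer_zpowers_of_involution {t : W} (ht : orderOf t = 2) :
    normalizer ((zpowers t : Subgroup W) : Set W) = centralizer ({t} : Set W) := by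
  have ht2 : t * t = 1 := by
    have := pow_orderOf_eq_one t
    rw [ht, pow_two] at this
    exact this
  have hinv : t⁻¹ = t := inv_eq_of_mul_eq_one_left ht2
  apply le_antisymm
  · intro x hx
    rw [mem_centralizer_singleton_iff]
    have h1 : x * t * x⁻¹ ∈ zpowers t :=
      (le_normalizer_iff.mp (le_refl _)) x hx t (mem_zpowers t)
    have h2 : ∀ y ∈ zpowers t, y = 1 ∨ y = t := by
      rintro _ ⟨k, rfl⟩
      rcases Int.even_or_odd' k with ⟨m, rfl | rfl⟩
      · left
        change t ^ (2 * m) = 1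
        rw [zpow_mul, zpow_two, ht2]; simp
      · right
        change t ^ (2 * m + 1) = t
        rw [zpow_add, zpow_mul, zpow_two, ht2]; simp
    rcases h2 _ h1 with h3 | h3
    · exfalso
      have h4 : t = 1 := by
        have : x * t * x⁻¹ = x * 1 * x⁻¹ := by rw [h3]; group
        exact mul_left_cancel (mul_right_cancel this)
      rw [h4, orderOf_one] at ht
      omega
    · calc x * t = x * t * x⁻¹ * x := by group
        _ = t * x := by rw [h3]
  · intro x hx
    rw [mem_centralizer_singleton_iff] at hx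
    have hcomm : Commute x t := hx
    have hk : ∀ k : ℤ, x * t ^ k * x⁻¹ = t ^ k := by
      intro k
      rw [(hcomm.zpow_right k).eq]
      group
    rw [mem_normalizer_iff]
    intro h
    constructor
    · rintro ⟨k, rfl⟩
      change x * t ^ k * x⁻¹ ∈ _
      rw [hk]
      exact zpow_mem (mem_zpowers t) k
    · rintro ⟨k, hk2⟩
      have hk3 : t ^ k = x * h * x⁻¹ := hk2
      have : h = t ^ k := by
        have h4 := hk k
        rw [hk3] at h4
        have h5 : x * (x * h * x⁻¹) * x⁻¹ = x * h * x⁻¹ := h4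
        have h6 : x * h * x⁻¹ = h := by
          have : x * (x * h * x⁻¹) = x * h := mul_right_cancel h5
          exact mul_left_cancel this
        rw [hk3, h6]
      rw [this]
      exact zpow_mem (mem_zpowers t) k

/-- **The main theorem in a group containing the involution**. -/
theorem exists_component (h0 : pPrimeCore 2 W = ⊥) {t : W} (ht : orderOf t = 2)
    {Y : Subgroup W} (hY1 : Y ≠ ⊥) (hY : Y ≤ PPIn 2 (centralizer ({t} : Set W))) :
    ∃ E : Subgroup W, IsComponent E ∧ E.map (MulAut.conj t).toMonoidHom = E ∧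
      Y ≤ normalizer (E : Set W) ∧ ¬ (t ∈ centralizer (E : Set W)) ∧
      ¬ (Y ≤ centralizer (E : Set W)) := by
  have hnc := normalizer_zpowers_of_involution ht
  have hzp : IsPGroup 2 (zpowers t : Subgroup W) := by
    rw [IsPGroup.iff_card]
    exact ⟨1, by rw [Nat.card_zpowers, ht, pow_one]⟩
  have ht2 : t * t = 1 := by
    have := pow_orderOf_eq_one t
    rw [ht, pow_two] at this
    exact this
  have htinv : t⁻¹ = t := inv_eq_of_mul_eq_one_left ht2
  -- `Y` normalizes all components
  have hYN : ∀ E : Subgroup W, IsComponent E → Y ≤ normalizer (E : Set W) := by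
    intro E hE y hy
    apply mem_normalizer_component h0 hzp _ hE
    rw [hnc]
    exact hY hy
  have hYt : ∀ y ∈ Y, y * t = t * y := by
    intro y hy
    exact mem_centralizer_singleton_iff.mp (PPIn_le _ (hY hy))
  -- `Y` moves a component
  obtain ⟨E, hE, hEY⟩ : ∃ E : Subgroup W, IsComponent E ∧ ¬ (Y ≤ centralizer (E : Set W)) := by
    by_contra hne
    push Not at hne
    apply hY1
    rw [eq_bot_iff]
    intro y hy
    have hc1 : layer W ≤ centralizer ({y} : Set W) := by
      rw [layer, sSup_le_iff]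
      intro E hE x hx
      rw [mem_centralizer_singleton_iff]
      have := (mem_centralizer_iff.mp (hne E hE hy)) x hx
      exact this
    have hc2 : pCore 2 W ≤ centralizer ({y} : Set W) := by
      intro x hx
      rw [mem_centralizer_singleton_iff]
      have h1 : y ∈ PPIn 2 (normalizer ((zpowers t : Subgroup W) : Set W)) := by
        rw [hnc]; exact hY hy
      exact (commute_pCore_of_mem_PPIn hzp h1 hx).symm
    have hc3 : generalizedFittingSubgroup W ≤ centralizer ({y} : Set W) := by
      rw [generalizedFittingSubgroup, fitting_eq_pCore h0]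
      exact sup_le hc1 hc2
    have hc4 : y ∈ centralizer (generalizedFittingSubgroup W : Set W) := by
      rw [mem_centralizer_iff]
      intro x hx
      exact (mem_centralizer_singleton_iff.mp (hc3 hx))
    have hc5 := centralizer_generalizedFitting_le hc4
    have hc6 := inf_centralizer_le_fitting (mem_inf.mpr ⟨hc5, hc4⟩)
    rw [fitting_eq_pCore h0] at hc6
    obtain ⟨k, hk⟩ := exists_pow_of_isPGroup (pCore_isPGroup (p := 2) (G := W)) hc6
    exact eq_one_of_mem_PPIn (hY hy) hk
  have hEmap : ∀ (E : Subgroup W) {x : W}, x ∈ E → t * x * t⁻¹ ∈ E.map (MulAut.conj t).toMonoidHom :=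
    fun E x hx => ⟨x, hx, rfl⟩
  -- `t` does not centralize `E`
  have hnt : ¬ (t ∈ centralizer (E : Set W)) := by
    intro htE
    apply hEY
    have : ⁅E, Y⁆ = ⊥ := by
      apply commutator_eq_bot_of_hom (p := 2) h0 hE (C := centralizer ({t} : Set W)) Y hY (hYN E hE)
        E.subtype
      · intro e
        rw [mem_centralizer_singleton_iff]
        exact (mem_centralizer_iff.mp htE) e e.2
      · intro e _ h1 f
        have : e = 1 := Subtype.ext h1
        rw [this, one_mul, mul_one]
      · intro x hx e h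
        rfl
    rw [commutator_comm, commutator_eq_bot_iff_le_centralizer] at this
    exact this
  refine ⟨E, hE, ?_, hYN E hE, hnt, hEY⟩
  -- `t` normalizes `E`
  by_contra hne
  apply hEY
  have hEt : IsComponent (E.map (MulAut.conj t).toMonoidHom) := isComponent_conj t hE
  have hcomm : ⁅E, E.map (MulAut.conj t).toMonoidHom⁆ = ⊥ :=
    (component_eq_or_commutator_eq_bot hE hEt).resolve_left (fun h => hne h.symm)
  have hc : ∀ e ∈ E, ∀ f ∈ E, e * (t * f * t⁻¹) = (t * f * t⁻¹) * e := by
    intro e he f hf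
    have h1 : ⁅e, t * f * t⁻¹⁆ ∈ ⁅E, E.map (MulAut.conj t).toMonoidHom⁆ :=
      commutator_mem_commutator he (hEmap E hf)
    rw [hcomm, mem_bot, commutatorElement_eq_one_iff_commute] at h1
    exact h1
  let δ : E →* W := MonoidHom.mk' (fun e => (e : W) * (t * e * t⁻¹)) (by
    intro a b
    simp only [Subgroup.coe_mul]
    calc (a : W) * b * (t * (a * b) * t⁻¹)
        = a * (b * (t * a * t⁻¹)) * (t * b * t⁻¹) := by group
      _ = a * ((t * a * t⁻¹) * b) * (t * b * t⁻¹) := by rw [hc b b.2 a a.2]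
      _ = a * (t * a * t⁻¹) * (b * (t * b * t⁻¹)) := by group)
  have : ⁅E, Y⁆ = ⊥ := by
    apply commutator_eq_bot_of_hom (p := 2) h0 hE (C := centralizer ({t} : Set W)) Y hY (hYN E hE) δ
    · intro e
      rw [mem_centralizer_singleton_iff]
      change (e : W) * (t * e * t⁻¹) * t = t * ((e : W) * (t * e * t⁻¹))
      have h1 := hc e e.2 e e.2
      rw [htinv] at h1 ⊢
      calc (e : W) * (t * e * t) * t = (e : W) * (t * e) * (t * t) := by group
        _ = (e : W) * (t * e) := by rw [ht2, mul_one]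
        _ = t * (t * (e * (t * e))) * 1 := by
            rw [mul_one, ← mul_assoc t t, ht2, one_mul]
        _ = t * (t * (e * (t * e))) * (t * t) := by rw [ht2]
        _ = t * (t * ((e : W) * (t * e * t)) * t) := by group
        _ = t * (t * ((t * e * t) * e) * t) := by rw [h1]
        _ = t * ((t * t) * e * t * (e * t)) := by group
        _ = t * ((e : W) * (t * e * t)) := by rw [ht2, one_mul]; group
    · intro e _ h1 f
      have h2 : (e : W) * (t * e * t⁻¹) = 1 := h1
      have h3 : (e : W) = (t * e * t⁻¹)⁻¹ := eq_inv_of_mul_eq_one_left h2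
      have h4 : (e : W) = t * (e : W)⁻¹ * t⁻¹ := by
        calc (e : W) = (t * e * t⁻¹)⁻¹ := h3
          _ = _ := by group
      have h5 := hc f f.2 (e : W)⁻¹ (inv_mem e.2)
      rw [← h4] at h5
      exact Subtype.ext h5.symm
    · intro x hx e h
      change (x * e * x⁻¹) * (t * (x * e * x⁻¹) * t⁻¹) = x * ((e : W) * (t * e * t⁻¹)) * x⁻¹
      have h1 := hYt x hx
      have h2 : t * x = x * t := h1.symm
      have h3 : x⁻¹ * t⁻¹ = t⁻¹ * x⁻¹ := by
        rw [← mul_inv_rev, ← mul_inv_rev, h1]
      calc (x * e * x⁻¹) * (t * (x * e * x⁻¹) * t⁻¹)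
          = (x * e * x⁻¹) * ((t * x) * e * (x⁻¹ * t⁻¹)) := by group
        _ = (x * e * x⁻¹) * ((x * t) * e * (t⁻¹ * x⁻¹)) := by rw [h2, h3]
        _ = x * ((e : W) * (t * e * t⁻¹)) * x⁻¹ := by group
  rw [commutator_comm, commutator_eq_bot_iff_le_centralizer] at this
  exact this

/-- Passing from a normal subgroup with elementary abelian quotient of exponent 2 to the group. -/
theorem pPrimeCore_eq_bot_of_two (H : Subgroup W) [hH : H.Normal] (hsq : ∀ x : W, x * x ∈ H)
    (h0 : pPrimeCore 2 H = ⊥) : pPrimeCore 2 W = ⊥ := by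
  have h1 := map_pPrimeCore_of_isSubnormal (p := 2) hH.isSubnormal
  rw [h0, Subgroup.map_bot] at h1
  rw [eq_bot_iff]
  intro x hx
  have h2 : x * x ∈ pPrimeCore 2 W ⊓ H := mem_inf.mpr ⟨mul_mem hx hx, hsq x⟩
  rw [← h1, mem_bot] at h2
  have h3 : x ^ 2 ^ 1 = 1 := by rw [pow_one, pow_two]; exact h2
  exact eq_one_of_pow_and_coprime (orderOf_coprime_of_mem_pPrimeCore hx) h3

/-- A component lies in a normal subgroup with quotient of exponent 2. -/
theorem component_le_of_two (H : Subgroup W) [hH : H.Normal] (hsq : ∀ x : W, x * x ∈ H)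
    {E : Subgroup W} (hE : IsComponent E) : E ≤ H := by
  have h1 : ⁅E, E⁆ ≤ H := by
    rw [commutator_le]
    intro x _ y _
    have e : ⁅x, y⁆ = (x * y) * (x * y) * (y⁻¹ * (x⁻¹ * x⁻¹) * y) * (y⁻¹ * y⁻¹) := by
      rw [commutatorElement_def]; group
    rw [e]
    refine mul_mem (mul_mem (hsq _) ?_) (hsq _)
    have := hH.conj_mem (x⁻¹ * x⁻¹) (hsq x⁻¹) y⁻¹
    simpa using this
  rwa [commutator_self_of_quasisimple hE.2] at h1

/-- **Unbalancing**: `H ≤ G` with `O(H) = 1`, `t` an involution normalizing `H` and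
`1 ≠ Y ≤ O(C_H(t))`. Then there is a component of `H` normalized by `t` and `Y` and centralized
by neither. -/
theorem main {G : Type u} [Group G] [Finite G] (H : Subgroup G) (hO : oddCore ↥H = ⊥) (t : G)
    (ht : orderOf t = 2) (htH : t ∈ normalizer (H : Set G)) (Y : Subgroup G) (hY1 : Y ≠ ⊥)
    (hY : Y ≤ (oddCore ↥(H ⊓ centralizer ({t} : Set G))).map
      (H ⊓ centralizer ({t} : Set G)).subtype) :
    ∃ E : Subgroup ↥H, IsComponent E ∧
      (E.map H.subtype).map (MulAut.conj t).toMonoidHom = E.map H.subtype ∧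
      Y ≤ normalizer ((E.map H.subtype : Subgroup G) : Set G) ∧
      ¬ (t ∈ centralizer ((E.map H.subtype : Subgroup G) : Set G)) ∧
      ¬ (Y ≤ centralizer ((E.map H.subtype : Subgroup G) : Set G)) := by
  have ht2 : t * t = 1 := by
    have := pow_orderOf_eq_one t
    rw [ht, pow_two] at this
    exact this
  set K : Subgroup G := H ⊔ zpowers t with hK
  have hHK : H ≤ K := le_sup_left
  have htK : t ∈ K := (le_sup_right : zpowers t ≤ K) (mem_zpowers t)
  have hzN : zpowers t ≤ normalizer (H : Set G) := by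
    rw [zpowers_le]; exact htH
  have hKN : K ≤ normalizer (H : Set G) := sup_le le_normalizer hzN
  let t' : K := ⟨t, htK⟩
  have ht' : orderOf t' = 2 := by
    rw [Subgroup.orderOf_mk]; exact ht
  have hH'n : (H.subgroupOf K).Normal := normal_subgroupOf_of_le_normalizer hKN
  have hsq : ∀ x : K, x * x ∈ H.subgroupOf K := by
    intro x
    rw [mem_subgroupOf]
    have hx : (x : G) ∈ zpowers t ⊔ H := by
      rw [sup_comm]; exact x.2
    obtain ⟨a, ha, b, hb, hab⟩ := mem_sup_of_le_normalizer hzN hx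
    have haa : a * a = 1 := by
      obtain ⟨k, rfl⟩ := ha
      change t ^ k * t ^ k = 1
      rw [← zpow_add, ← two_mul, zpow_mul, zpow_two, ht2, one_zpow]
    have e : ((x * x : K) : G) = (a * b * a⁻¹) * (a * a) * b := by
      rw [Subgroup.coe_mul, ← hab]; group
    rw [e, haa, mul_one]
    exact mul_mem ((le_normalizer_iff.mp hzN) a ha b hb) hb
  have h0H' : pPrimeCore 2 ↥(H.subgroupOf K) = ⊥ := by
    rw [← map_pPrimeCore_equiv (p := 2) (subgroupOfEquivOfLe hHK).symm]
    have : pPrimeCore 2 ↥H = ⊥ := hO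
    rw [this, Subgroup.map_bot]
  have h0W : pPrimeCore 2 K = ⊥ := pPrimeCore_eq_bot_of_two (H.subgroupOf K) hsq h0H'
  set O₀ : Subgroup G := PPIn 2 (H ⊓ centralizer ({t} : Set G)) with hO₀
  have hYO : Y ≤ O₀ := hY
  have hO₀le : O₀ ≤ H ⊓ centralizer ({t} : Set G) := PPIn_le _
  have hO₀K : O₀ ≤ K := hO₀le.trans (inf_le_left.trans hHK)
  have hYK : Y ≤ K := hYO.trans hO₀K
  have hY1' : Y.subgroupOf K ≠ ⊥ := by
    intro h
    apply hY1
    rw [eq_bot_iff]
    intro y hy
    have h1 : (⟨y, hYK hy⟩ : K) ∈ Y.subgroupOf K := hy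
    rw [h, mem_bot] at h1
    exact congrArg Subtype.val h1
  have hY' : Y.subgroupOf K ≤ PPIn 2 (centralizer ({t'} : Set K)) := by
    have h1 : O₀.subgroupOf K ≤ PPIn 2 (centralizer ({t'} : Set K)) := by
      apply le_PPIn
      · intro x hx
        rw [mem_centralizer_singleton_iff]
        have h2 := mem_centralizer_singleton_iff.mp (hO₀le hx : (x : G) ∈ _ ⊓ _).2
        exact Subtype.ext h2
      · intro w hw
        have hw' := mem_centralizer_singleton_iff.mp hw
        have hw2 : (w : G) * t = t * w := congrArg Subtype.val hw'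
        have hwN : (w : G) ∈ normalizer ((H ⊓ centralizer ({t} : Set G) : Subgroup G) : Set G) := by
          apply Cfsg.Agent.Lib.LocalEven.Util.mem_normalizer_of_conj_le
          intro y hy
          have hy1 : y ∈ H := (mem_inf.mp hy).1
          have hy2 : y * t = t * y := mem_centralizer_singleton_iff.mp (mem_inf.mp hy).2
          refine mem_inf.mpr ⟨(le_normalizer_iff.mp hKN) w w.2 y hy1, ?_⟩
          rw [mem_centralizer_singleton_iff]
          have hw3 : (w : G)⁻¹ * t = t * (w : G)⁻¹ := by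
            calc (w : G)⁻¹ * t = (w : G)⁻¹ * (t * w) * (w : G)⁻¹ := by group
              _ = (w : G)⁻¹ * (w * t) * (w : G)⁻¹ := by rw [hw2]
              _ = t * (w : G)⁻¹ := by group
          calc (w : G) * y * (w : G)⁻¹ * t = w * y * ((w : G)⁻¹ * t) := by group
            _ = w * (y * t) * (w : G)⁻¹ := by rw [hw3]; group
            _ = (w * t) * y * (w : G)⁻¹ := by rw [hy2]; group
            _ = t * (w * y * (w : G)⁻¹) := by rw [hw2]; group
        rw [mem_normalizer_iff]
        intro x
        rw [mem_subgroupOf, mem_subgroupOf]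
        exact mem_normalizer_iff.mp (normalizer_le_normalizer_PPIn (p := 2) _ hwN) (x : G)
      · have e : Nat.card (O₀.subgroupOf K) = Nat.card O₀ :=
          Nat.card_congr (subgroupOfEquivOfLe hO₀K).toEquiv
        rw [e]
        exact card_PPIn_coprime _
    intro y hy
    exact h1 (hYO hy)
  obtain ⟨E', hE', hE't, hE'Y, hE'nt, hE'nY⟩ := exists_component h0W ht' hY1' hY'
  have hE'H : E' ≤ H.subgroupOf K := component_le_of_two _ hsq hE'
  let E : Subgroup ↥H := E'.comap (inclusion hHK)
  have hmap : E.map H.subtype = E'.map K.subtype := by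
    ext x
    constructor
    · rintro ⟨u, hu, rfl⟩
      exact ⟨inclusion hHK u, hu, rfl⟩
    · rintro ⟨u, hu, rfl⟩
      have h1 : (u : G) ∈ H := hE'H hu
      refine ⟨⟨u, h1⟩, ?_, rfl⟩
      change inclusion hHK ⟨(u : G), h1⟩ ∈ E'
      exact hu
  have hinjH : Function.Injective H.subtype := H.subtype_injective
  have hinjK : Function.Injective K.subtype := K.subtype_injective
  have hEcomp : IsComponent E := by
    refine ⟨hE'.1.comap _, ?_⟩
    have e1 : E ≃* E.map H.subtype := E.equivMapOfInjective _ hinjH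
    have e2 : E' ≃* E'.map K.subtype := E'.equivMapOfInjective _ hinjK
    have e3 : E.map H.subtype ≃* E'.map K.subtype := MulEquiv.subgroupCongr hmap
    exact (quasisimple_congr (e1.trans (e3.trans e2.symm))).mpr hE'.2
  refine ⟨E, hEcomp, ?_, ?_, ?_, ?_⟩
  · rw [hmap]
    have h1 : (E'.map K.subtype).map (MulAut.conj t).toMonoidHom =
        (E'.map (MulAut.conj t').toMonoidHom).map K.subtype := by
      rw [Subgroup.map_map, Subgroup.map_map]
      congr 1
    rw [h1, hE't]
  · rw [hmap]
    intro y hy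
    have h1 : (⟨y, hYK hy⟩ : K) ∈ normalizer (E' : Set K) := hE'Y hy
    exact Subgroup.le_normalizer_map _ ⟨_, h1, rfl⟩
  · rw [hmap]
    intro h
    apply hE'nt
    rw [mem_centralizer_iff]
    intro x hx
    have h1 := (mem_centralizer_iff.mp h) (x : G) ⟨x, hx, rfl⟩
    exact Subtype.ext h1
  · rw [hmap]
    intro h
    apply hE'nY
    intro y hy
    rw [mem_centralizer_iff]
    intro x hx
    have h1 := (mem_centralizer_iff.mp (h hy)) (x : G) ⟨x, hx, rfl⟩
    exact Subtype.ext h1

end Cfsg.Agent.Lib.Components.Unbalance
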